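import Cfsg.Agent.Lib.Suzuki.Classify

/-! Which pairs of elements of `Sz(q)`, `q` a prime power of prime degree over `GF(2)`, generate solvable
subgroups, with the resulting counts (owner helper8). -/
set_option autoImplicit false
set_option linter.all false

namespace CfsgLib.Suzuki.Solubilizer

open Cfsg (suzukiOvoid)
open CfsgLib.Fusion (cj card_cj)
open Classical
open scoped Pointwise

variable {F : Type*} [Field F] [Fintype F] {m : ℕ}

/-- a torus -/
def Tor (U : Subgroup (Cfsg.Sz F m)) : Prop := ∃ g, g ≠ 1 ∧ ¬ 2 ∣ orderOf g ∧ U = Subgroup.centralizer {g}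

/-- number of elements of given order in a subgroup -/
noncomputable def cnt (K : Subgroup (Cfsg.Sz F m)) (k : ℕ) : ℕ := Nat.card {s : Cfsg.Sz F m // s ∈ K ∧ orderOf s = k}

section
variable (h : Hyp F m)
include h

theorem tG_pow_four (a b : F) : h.tG a b ^ 4 = 1 := by
  have e : h.tG a b ^ 4 = (h.tG a b ^ 2) ^ 2 := (pow_mul (h.tG a b) 2 2)
  rw [e, pow_two (h.tG a b), h.tG_sq, pow_two, h.tG_sq, sg_zero, zero_mul, h.tG_zero]

theorem odd_types {g : Cfsg.Sz F m} (hg : g ≠ 1) (ho : ¬ 2 ∣ orderOf g) :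
    Fpf g ∨ ∃ (k : Cfsg.Sz F m) (d : Fˣ), d ≠ 1 ∧ g = k * h.hG d * k⁻¹ := by
  by_cases hf : Fpf g
  · exact Or.inl hf
  unfold Fpf at hf; push Not at hf
  obtain ⟨p, hp⟩ := hf
  obtain ⟨k, -, ⟨a, b, hne, e⟩ | ⟨d, hd, e⟩⟩ := h.classify hg hp
  · exfalso
    have h4 : orderOf g ∣ 2 ^ 2 := orderOf_dvd_of_pow_eq_one (by
      rw [e, conj_pow]; show k * h.tG a b ^ 4 * k⁻¹ = 1; rw [tG_pow_four h]; group)
    obtain ⟨i, -, hi⟩ := (Nat.dvd_prime_pow Nat.prime_two).mp h4
    rcases i with _ | i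
    · exact hg (orderOf_eq_one_iff.mp (by simpa using hi))
    · exact ho (by rw [hi]; exact dvd_pow_self 2 (Nat.succ_ne_zero i))
  · exact Or.inr ⟨k, d, hd, e⟩

theorem cent_hG_conj {k : Cfsg.Sz F m} {d : Fˣ} (hd : d ≠ 1) :
    Subgroup.centralizer {k * h.hG d * k⁻¹} = cj k h.hG.range := by
  rw [centralizer_conj, h.cent_hG hd]

theorem tor_cases {U : Subgroup (Cfsg.Sz F m)} (hU : Tor U) :
    (∃ g, Fpf g ∧ U = Subgroup.centralizer {g}) ∨ ∃ k, U = cj k h.hG.range := by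
  obtain ⟨g, hg, ho, rfl⟩ := hU
  rcases odd_types h hg ho with hf | ⟨k, d, hd, rfl⟩
  · exact Or.inl ⟨g, hf, rfl⟩
  · exact Or.inr ⟨k, cent_hG_conj h hd⟩

theorem tor_odd {U : Subgroup (Cfsg.Sz F m)} (hU : Tor U) : ¬ 2 ∣ Nat.card U := by
  obtain ⟨hq, -, hq2⟩ := Fixity.q_facts h
  rcases tor_cases h hU with ⟨g, hf, rfl⟩ | ⟨k, rfl⟩
  · exact fun hd => hq2 (hd.trans (h.cent_dvd hf))
  · rwa [card_cj, Fixity.card_T h]

theorem tor_cyclic {U : Subgroup (Cfsg.Sz F m)} (hU : Tor U) : IsCyclic U := by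
  rcases tor_cases h hU with ⟨g, hf, rfl⟩ | ⟨k, rfl⟩
  · exact h.cyclic_cent (h.fpf_ne_one hf) hf
  · haveI : IsCyclic h.hG.range := isCyclic_of_surjective h.hG.rangeRestrict h.hG.rangeRestrict_surjective
    exact isCyclic_of_surjective _ (Subgroup.equivMapOfInjective h.hG.range _ (MulAut.conj k).injective).surjective

theorem tor_cent {U : Subgroup (Cfsg.Sz F m)} (hU : Tor U) {u : Cfsg.Sz F m} (hu : u ∈ U) (hu1 : u ≠ 1) :
    Subgroup.centralizer {u} = U := by
  rcases tor_cases h hU with ⟨g, hf, rfl⟩ | ⟨k, rfl⟩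
  · exact (h.cent_eq hf hu hu1).2
  · obtain ⟨_, ⟨d, rfl⟩, rfl⟩ := hu
    exact cent_hG_conj h (fun e => hu1 (by rw [e, map_one]; simp))

theorem tor_mk {U : Subgroup (Cfsg.Sz F m)} (hU : Tor U) (x : Cfsg.Sz F m) : Tor (cj x U) := by
  obtain ⟨g, hg, ho, rfl⟩ := hU
  refine ⟨x * g * x⁻¹, fun e => hg (conj_eq_one_iff.mp e), ?_, (centralizer_conj g x).symm⟩
  rwa [show orderOf (x * g * x⁻¹) = orderOf g from (MulAut.conj x).orderOf_eq g]

theorem tor_range : Tor h.hG.range := by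
  obtain ⟨a0, ha0, ha1⟩ := h.exists_gt
  set d := Units.mk0 a0 ha0
  have hd : d ≠ 1 := fun e => ha1 (congrArg Units.val e)
  refine ⟨h.hG d, fun e => hd (h.hG_inj (e.trans (map_one _).symm)), fun h2 => ?_, (h.cent_hG hd).symm⟩
  exact (Fixity.q_facts h).1 (by rw [← Fixity.card_T h]; exact h2.trans (Subgroup.orderOf_dvd_natCard _ ⟨d, rfl⟩))

theorem tor_fpf {g : Cfsg.Sz F m} (hf : Fpf g) : Tor (Subgroup.centralizer {g}) :=
  ⟨g, h.fpf_ne_one hf, fun h2 => (Fixity.q_facts h).2.2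
    ((h2.trans (Subgroup.orderOf_dvd_natCard _ (Subgroup.mem_centralizer_singleton_iff.mpr rfl))).trans (h.cent_dvd hf)), rfl⟩

theorem card_normalizer_range :
    Nat.card (Subgroup.normalizer (h.hG.range : Set (Cfsg.Sz F m))) = 2 * (Fintype.card F - 1) := by
  obtain ⟨a0, ha0, ha1⟩ := h.exists_gt
  set d := Units.mk0 a0 ha0
  have hd : d ≠ 1 := fun e => ha1 (congrArg Units.val e)
  have hwI : h.wG • oI F m = o0 F m := Subtype.ext (wS_I (m := m))
  have hw0 : h.wG • o0 F m = oI F m := Subtype.ext wS_P0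
  have hwN : h.wG ∈ Subgroup.normalizer (h.hG.range : Set (Cfsg.Sz F m)) := by
    rw [Subgroup.mem_normalizer_iff]
    intro x
    rw [inv_eq_of_mul_eq_one_right h.wG_wG]
    constructor
    · rintro ⟨e, rfl⟩; exact ⟨e⁻¹, (h.wG_hG e).symm⟩
    · rintro ⟨e, he⟩
      refine ⟨e⁻¹, ?_⟩
      rw [← h.wG_hG e, he]
      simp only [← mul_assoc, h.wG_wG, one_mul]
      rw [mul_assoc, h.wG_wG, mul_one]
  let f : Fˣ × Bool → Subgroup.normalizer (h.hG.range : Set (Cfsg.Sz F m)) := fun z =>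
    if z.2 then ⟨h.hG z.1, Subgroup.le_normalizer ⟨z.1, rfl⟩⟩
    else ⟨h.wG * h.hG z.1, mul_mem hwN (Subgroup.le_normalizer ⟨z.1, rfl⟩)⟩
  have hb : Function.Bijective f := by
    constructor
    · rintro ⟨e, b⟩ ⟨e', b'⟩ he
      have key : ∀ e e' : Fˣ, h.hG e ≠ h.wG * h.hG e' := fun e e' he => by
        have := congrArg (fun y : Cfsg.Sz F m => y • oI F m) he
        simp only [mul_smul, h.hG_oI, hwI] at this
        exact h.oI_ne_o0 this
      cases b <;> cases b' <;> simp only [f, Bool.false_eq_true, if_true, if_false, Subtype.mk.injEq] at he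
      · rw [h.hG_inj (mul_left_cancel he)]
      · exact absurd he.symm (key _ _)
      · exact absurd he (key _ _)
      · rw [h.hG_inj he]
    · rintro ⟨n, hn⟩
      obtain ⟨d', hd'⟩ := (Subgroup.mem_normalizer_iff.mp hn (h.hG d)).mp ⟨d, rfl⟩
      have hd'1 : d' ≠ 1 := fun e => by
        rw [e, map_one] at hd'
        exact hd (h.hG_inj ((conj_eq_one_iff.mp hd'.symm).trans (map_one _).symm))
      have hp : ∀ p : suzukiOvoid F m, h.hG d • p = p → (n • p = oI F m ∨ n • p = o0 F m) := fun p hp =>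
        h.hG_fix hd'1 (by rw [hd', ← mul_smul, inv_mul_cancel_right, mul_smul, hp])
      rcases hp _ (h.hG_oI d) with eI | e0
      · rcases hp _ (h.hG_o0 d) with e' | e'
        · exact absurd (MulAction.injective n (eI.trans e'.symm)) h.oI_ne_o0
        · obtain ⟨e, he⟩ := h.eq_hG (congrArg Subtype.val eI) (congrArg Subtype.val e')
          exact ⟨(e, true), Subtype.ext he.symm⟩
      · rcases hp _ (h.hG_o0 d) with e' | e'
        swap
        · exact absurd (MulAction.injective n (e0.trans e'.symm)) h.oI_ne_o0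
        obtain ⟨e, he⟩ := h.eq_hG (g := h.wG * n)
          (congrArg Subtype.val (show (h.wG * n) • oI F m = oI F m by rw [mul_smul, e0, hw0]))
          (congrArg Subtype.val (show (h.wG * n) • o0 F m = o0 F m by rw [mul_smul, e', hwI]))
        exact ⟨(e, false), Subtype.ext (by show h.wG * h.hG e = n; rw [← he, ← mul_assoc, h.wG_wG, one_mul])⟩
  rw [← Nat.card_eq_of_bijective f hb, Nat.card_prod, Nat.card_eq_fintype_card, Fintype.card_units,
    Nat.card_eq_fintype_card, Fintype.card_bool, mul_comm]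

theorem card_normalizer_cj (x : Cfsg.Sz F m) (U : Subgroup (Cfsg.Sz F m)) :
    Nat.card (Subgroup.normalizer (cj x U : Set (Cfsg.Sz F m))) = Nat.card (Subgroup.normalizer (U : Set (Cfsg.Sz F m))) := by
  rw [show Subgroup.normalizer (cj x U : Set (Cfsg.Sz F m)) = cj x (Subgroup.normalizer (U : Set (Cfsg.Sz F m))) from
    (Subgroup.map_equiv_normalizer_eq U (MulAut.conj x)).symm, card_cj]

theorem tor_norm {U : Subgroup (Cfsg.Sz F m)} (hU : Tor U) :
    ∃ e, (e = 2 ∨ e = 4) ∧ Nat.card (Subgroup.normalizer (U : Set (Cfsg.Sz F m))) = e * Nat.card U ∧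
      (e = 2 → Nat.card U = Fintype.card F - 1) := by
  rcases tor_cases h hU with ⟨g, hf, rfl⟩ | ⟨k, rfl⟩
  · obtain ⟨g₁, g₂, -, -, -, -, n1, n2, hall⟩ := h.exists_tori
    obtain ⟨c, e | e⟩ := hall g hf
    · exact ⟨4, Or.inr rfl, by rw [e, card_normalizer_cj h, card_cj, n1], fun h4 => absurd h4 (by norm_num)⟩
    · exact ⟨4, Or.inr rfl, by rw [e, card_normalizer_cj h, card_cj, n2], fun h4 => absurd h4 (by norm_num)⟩
  · exact ⟨2, Or.inl rfl, by rw [card_normalizer_cj h, card_cj, card_normalizer_range h, Fixity.card_T h],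
      fun _ => by rw [card_cj, Fixity.card_T h]⟩

theorem pow_four_mem {U : Subgroup (Cfsg.Sz F m)} (hU : Tor U) {s : Cfsg.Sz F m}
    (hs : s ∈ Subgroup.normalizer (U : Set (Cfsg.Sz F m))) : s ^ 4 ∈ U := by
  obtain ⟨e, he, hN, -⟩ := tor_norm h hU
  set N := Subgroup.normalizer (U : Set (Cfsg.Sz F m))
  haveI : (U.subgroupOf N).Normal := Subgroup.normal_in_normalizer
  have hidx : (U.subgroupOf N).index = e := by
    have := (U.subgroupOf N).card_mul_index
    rw [Nat.card_congr (Subgroup.subgroupOfEquivOfLe (Subgroup.le_normalizer (H := U))).toEquiv, hN, mul_comm e] at this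
    exact Nat.eq_of_mul_eq_mul_left Nat.card_pos this
  have hmem : (⟨s, hs⟩ : N) ^ e ∈ U.subgroupOf N := hidx ▸ Subgroup.pow_index_mem (U.subgroupOf N) _
  rcases he with rfl | rfl
  · have e4 : s ^ 4 = (s ^ 2) ^ 2 := pow_mul s 2 2
    rw [e4]; exact pow_mem hmem 2
  · exact hmem

theorem odd_mem {U : Subgroup (Cfsg.Sz F m)} (hU : Tor U) {s : Cfsg.Sz F m}
    (hs : s ∈ Subgroup.normalizer (U : Set (Cfsg.Sz F m))) (ho : ¬ 2 ∣ orderOf s) : s ∈ U := by
  have hc : Nat.Coprime 4 (orderOf s) :=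
    (Nat.Coprime.pow_left 2 (Nat.prime_two.coprime_iff_not_dvd.mpr ho) : Nat.Coprime (2 ^ 2) (orderOf s))
  obtain ⟨k, hk⟩ := exists_pow_eq_self_of_coprime hc
  rw [← hk]; exact pow_mem (pow_four_mem h hU hs) k

theorem two_group_of_inf {U K : Subgroup (Cfsg.Sz F m)} (hU : Tor U)
    (hK : K ≤ Subgroup.normalizer (U : Set (Cfsg.Sz F m))) (hKU : ∀ u ∈ K, u ∈ U → u = 1) : IsPGroup 2 K := fun s =>
  ⟨2, Subtype.ext (hKU _ (pow_mem s.2 _) (pow_four_mem h hU (hK s.2)))⟩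

theorem not_two_dvd_of_mem {U : Subgroup (Cfsg.Sz F m)} (hU : Tor U) {s : Cfsg.Sz F m} (hs : s ∈ U) :
    ¬ 2 ∣ orderOf s := fun hd => tor_odd h hU (hd.trans (Subgroup.orderOf_dvd_natCard U hs))

theorem cnt_facts {U : Subgroup (Cfsg.Sz F m)} (hU : Tor U) :
    ∀ e, Nat.card (Subgroup.normalizer (U : Set (Cfsg.Sz F m))) = e * Nat.card U →
      cnt (Subgroup.normalizer (U : Set (Cfsg.Sz F m))) 2 = Nat.card U ∧
      (e = 2 → cnt (Subgroup.normalizer (U : Set (Cfsg.Sz F m))) 4 = 0) ∧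
      (e = 4 → cnt (Subgroup.normalizer (U : Set (Cfsg.Sz F m))) 4 = 2 * Nat.card U) := by
  intro e hN
  obtain ⟨e', he', hN', -⟩ := tor_norm h hU
  obtain rfl : e = e' := Nat.eq_of_mul_eq_mul_right Nat.card_pos (hN.symm.trans hN')
  set N := Subgroup.normalizer (U : Set (Cfsg.Sz F m)) with hNdef
  haveI : Fintype (Cfsg.Sz F m) := Fintype.ofFinite _
  haveI : Fact (Nat.Prime 2) := ⟨Nat.prime_two⟩
  have hUN : U ≤ N := Subgroup.le_normalizer
  -- an element of order `e` outside `U`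
  obtain ⟨P⟩ : Nonempty (Sylow 2 N) := inferInstance
  set PG := (P : Subgroup N).map N.subtype with hPG
  have hPN : PG ≤ N := Subgroup.map_subtype_le _
  have hPcard : Nat.card PG = e := by
    rw [hPG, Subgroup.card_map_of_injective N.subtype_injective, P.card_eq_multiplicity, hN]
    have hne : Nat.card U ≠ 0 := Nat.card_pos.ne'
    rw [Nat.factorization_mul (by omega) hne, Finsupp.add_apply,
      Nat.factorization_eq_zero_of_not_dvd (tor_odd h hU), add_zero]
    rcases he' with rfl | rfl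
    · rw [Nat.Prime.factorization_self Nat.prime_two]; rfl
    · rw [show 4 = 2 ^ 2 from rfl, Nat.Prime.factorization_pow Nat.prime_two, Finsupp.single_eq_same]
  have hPU : ∀ u ∈ PG, u ∈ U → u = 1 := fun u hu huU => by
    by_contra hne
    have h1 : orderOf u ∣ e := hPcard ▸ Subgroup.orderOf_dvd_natCard PG hu
    have h4 : orderOf u ∣ 2 ^ 2 := h1.trans (by rcases he' with rfl | rfl <;> norm_num)
    obtain ⟨i, -, hi⟩ := (Nat.dvd_prime_pow Nat.prime_two).mp h4
    rcases i with _ | i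
    · exact hne (orderOf_eq_one_iff.mp (by simpa using hi))
    · exact not_two_dvd_of_mem h hU huU (by rw [hi]; exact dvd_pow_self 2 (Nat.succ_ne_zero i))
  obtain ⟨u₀, hu₀, hu₀1⟩ : ∃ u ∈ U, u ≠ 1 := by
    obtain ⟨g, hg, -, rfl⟩ := hU
    exact ⟨g, Subgroup.mem_centralizer_singleton_iff.mpr rfl, hg⟩
  have hinv : ∀ t ∈ N, orderOf t = 2 → t * u₀ * t⁻¹ = u₀⁻¹ := by
    intro t ht h2
    have htt : t * t = 1 := by rw [← pow_two, ← h2, pow_orderOf_eq_one]
    have hti : t⁻¹ = t := inv_eq_of_mul_eq_one_right htt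
    have hv : t * u₀ * t⁻¹ ∈ U := (Subgroup.mem_normalizer_iff.mp ht u₀).mp hu₀
    haveI := tor_cyclic h hU
    have hcomm : u₀ * (t * u₀ * t⁻¹) = (t * u₀ * t⁻¹) * u₀ :=
      congrArg Subtype.val (IsMulCommutative.is_comm.comm (⟨u₀, hu₀⟩ : U) ⟨_, hv⟩)
    refine eq_inv_of_mul_eq_one_right ?_
    by_contra hne
    have hw : u₀ * (t * u₀ * t⁻¹) ∈ U := mul_mem hu₀ hv
    have : t ∈ U := by
      rw [← tor_cent h hU hw hne, Subgroup.mem_centralizer_singleton_iff]
      calc t * (u₀ * (t * u₀ * t⁻¹)) = t * u₀ * t⁻¹ * t * t * u₀ * t⁻¹ := by group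
        _ = t * u₀ * t⁻¹ * u₀ * t⁻¹ := by rw [mul_assoc (t * u₀ * t⁻¹) t t, htt, mul_one]
        _ = _ := by rw [← hcomm, hti]
    exact not_two_dvd_of_mem h hU this (by rw [h2])
  obtain ⟨c, hcP, hco⟩ : ∃ c ∈ PG, orderOf c = e := by
    rcases he' with rfl | rfl
    · obtain ⟨⟨c, hc⟩, ho⟩ := exists_prime_orderOf_dvd_card' (G := PG) 2 (by rw [hPcard])
      exact ⟨c, hc, by rwa [Subgroup.orderOf_mk] at ho⟩
    · by_contra hcon
      push Not at hcon
      have h2 : ∀ c ∈ PG, c ≠ 1 → orderOf c = 2 := fun c hc hc1 => by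
        have h4 : orderOf c ∣ 2 ^ 2 := (Subgroup.orderOf_dvd_natCard PG hc).trans (dvd_of_eq (hPcard.trans (by norm_num)))
        obtain ⟨i, hi, hoi⟩ := (Nat.dvd_prime_pow Nat.prime_two).mp h4
        interval_cases i
        · exact absurd (orderOf_eq_one_iff.mp (by simpa using hoi)) hc1
        · simpa using hoi
        · exact absurd (by simpa using hoi) (hcon c hc)
      have : 2 < Nat.card PG := by omega
      obtain ⟨a, b, c', hab, hac, hbc⟩ : ∃ a b c : PG, a ≠ b ∧ a ≠ c ∧ b ≠ c := by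
        rw [Nat.card_eq_fintype_card] at this
        exact Fintype.two_lt_card_iff.mp this
      obtain ⟨a, b, ha, hb, hne⟩ : ∃ a b : PG, a ≠ 1 ∧ b ≠ 1 ∧ a ≠ b := by
        by_cases ha : a = 1
        · exact ⟨b, c', fun e => hab (ha.trans e.symm), fun e => hac (ha.trans e.symm), hbc⟩
        · by_cases hb : b = 1
          · exact ⟨a, c', ha, fun e => hbc (hb.trans e.symm), hac⟩
          · exact ⟨a, b, ha, hb, hab⟩
      have ha2 := h2 a a.2 (fun e => ha (Subtype.ext e))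
      have hb2 := h2 b b.2 (fun e => hb (Subtype.ext e))
      have hz : ((a⁻¹ * b : PG) : Cfsg.Sz F m) ∈ U := by
        rw [← tor_cent h hU hu₀ hu₀1, Subgroup.mem_centralizer_singleton_iff, Subgroup.coe_mul, Subgroup.coe_inv]
        have e1 := hinv a (hPN a.2) ha2
        have e2 := hinv b (hPN b.2) hb2
        calc (a : Cfsg.Sz F m)⁻¹ * b * u₀ = (a : Cfsg.Sz F m)⁻¹ * (b * u₀ * (b : Cfsg.Sz F m)⁻¹) * b := by group
          _ = (a : Cfsg.Sz F m)⁻¹ * (a * u₀ * (a : Cfsg.Sz F m)⁻¹) * b := by rw [e1, e2]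
          _ = _ := by group
      exact hne (inv_mul_eq_one.mp (Subtype.ext (hPU _ (a⁻¹ * b : PG).2 hz)))
  have hcN : c ∈ N := hPN hcP
  let f : U × Fin e → N := fun z => ⟨(z.1 : Cfsg.Sz F m) * c ^ (z.2 : ℕ), mul_mem (hUN z.1.2) (pow_mem hcN _)⟩
  have hf : Function.Bijective f := by
    refine (Fintype.bijective_iff_injective_and_card f).mpr ⟨?_, ?_⟩
    · rintro ⟨u, i⟩ ⟨v, j⟩ he
      have he' : (u : Cfsg.Sz F m) * c ^ (i : ℕ) = v * c ^ (j : ℕ) := congrArg Subtype.val he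
      have hmem : c ^ (i : ℕ) * (c ^ (j : ℕ))⁻¹ = ((u⁻¹ * v : U) : Cfsg.Sz F m) := by
        rw [Subgroup.coe_mul, Subgroup.coe_inv, eq_inv_mul_iff_mul_eq, ← mul_assoc, he', mul_inv_cancel_right]
      have h1 : c ^ (i : ℕ) * (c ^ (j : ℕ))⁻¹ = 1 :=
        hPU _ (mul_mem (pow_mem hcP _) (inv_mem (pow_mem hcP _))) (hmem ▸ (u⁻¹ * v : U).2)
      obtain rfl : i = j := Fin.ext (pow_injOn_Iio_orderOf (by simp [hco]) (by simp [hco]) (mul_inv_eq_one.mp h1))
      exact Prod.ext (Subtype.ext (mul_right_cancel he')) rfl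
    · rw [Fintype.card_prod, Fintype.card_fin, ← Nat.card_eq_fintype_card, ← Nat.card_eq_fintype_card (α := N), hN, mul_comm]
  have hord : ∀ (u : U) (i : Fin e), orderOf ((u : Cfsg.Sz F m) * c ^ (i : ℕ)) ∈ ({2, 4} : Set ℕ) → (i : ℕ) ≠ 0 := by
    intro u i hmem hi
    rw [hi, pow_zero, mul_one] at hmem
    refine not_two_dvd_of_mem h hU u.2 ?_
    rcases hmem with e1 | e1 <;> rw [e1] <;> norm_num
  have hne1 : ∀ (u : U) (i : Fin e), (i : ℕ) ≠ 0 → (u : Cfsg.Sz F m) * c ^ (i : ℕ) ∉ U := by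
    intro u i hi hmem
    have h1 := hPU _ (pow_mem hcP _) ((Subgroup.mul_mem_cancel_left U u.2).mp hmem)
    have := orderOf_dvd_of_pow_eq_one h1
    rw [hco] at this
    exact absurd (Nat.le_of_dvd (Nat.pos_of_ne_zero hi) this) (by omega)
  have hpow4 : ∀ (u : U) (i : Fin e), (i : ℕ) ≠ 0 → ((u : Cfsg.Sz F m) * c ^ (i : ℕ)) ^ 4 = 1 := by
    intro u i hi
    by_contra hne
    set s := (u : Cfsg.Sz F m) * c ^ (i : ℕ)
    have hs4 := pow_four_mem h hU (mul_mem (hUN u.2) (pow_mem hcN _) : s ∈ N)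
    refine hne1 u i hi ?_
    show s ∈ U
    rw [← tor_cent h hU hs4 hne, Subgroup.mem_centralizer_singleton_iff]
    exact (pow_mul_comm' s 4).symm
  have hsq : ∀ (u : U) (i : Fin e), ∃ u' : U, ((u : Cfsg.Sz F m) * c ^ (i : ℕ)) ^ 2 = u' * c ^ (2 * (i : ℕ)) := by
    intro u i
    refine ⟨⟨(u : Cfsg.Sz F m) * (c ^ (i : ℕ) * u * (c ^ (i : ℕ))⁻¹), mul_mem u.2
      ((Subgroup.mem_normalizer_iff.mp (pow_mem hcN _) _).mp u.2)⟩, ?_⟩
    rw [pow_two, two_mul, pow_add]; simp only [mul_assoc, inv_mul_cancel_left]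
  have hiff : ∀ (z : U × Fin e) (k : ℕ), (k = 2 ∨ k = 4) → (orderOf (f z : Cfsg.Sz F m) = k ↔
      (z.2 : ℕ) ≠ 0 ∧ ((k = 2) ↔ (e ∣ 2 * (z.2 : ℕ)))) := by
    rintro ⟨u, i⟩ k hk
    show orderOf ((u : Cfsg.Sz F m) * c ^ (i : ℕ)) = k ↔ _
    set s := (u : Cfsg.Sz F m) * c ^ (i : ℕ) with hsdef
    have hval : (i : ℕ) ≠ 0 → ((e ∣ 2 * (i : ℕ)) → orderOf s = 2) ∧ (¬ e ∣ 2 * (i : ℕ) → orderOf s = 4) := by
      intro hi
      obtain ⟨u', hu'⟩ := hsq u i
      refine ⟨fun hd => ?_, fun hd => ?_⟩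
      · refine orderOf_eq_prime ?_ (fun e1 => hne1 u i hi (by rw [← hsdef, e1]; exact one_mem U))
        have h2 : c ^ (2 * (i : ℕ)) = 1 := orderOf_dvd_iff_pow_eq_one.mp (hco ▸ hd)
        rw [h2, mul_one] at hu'
        by_contra hne
        have h4 : (u' : Cfsg.Sz F m) ^ 2 = 1 := by
          rw [← hu', ← pow_mul]; exact hpow4 u i hi
        refine not_two_dvd_of_mem h hU u'.2 ?_
        rw [orderOf_eq_prime h4 (fun e1 => hne (by rw [hsdef, hu', e1]))]
      · have h2 : s ^ 2 ≠ 1 := fun e1 => hd (by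
          rw [hu'] at e1
          have : c ^ (2 * (i : ℕ)) = ((u'⁻¹ : U) : Cfsg.Sz F m) := by
            rw [Subgroup.coe_inv]; exact eq_inv_of_mul_eq_one_right e1
          have hh := orderOf_dvd_of_pow_eq_one (hPU _ (pow_mem hcP _) (this ▸ (u'⁻¹ : U).2))
          rwa [hco] at hh)
        have := orderOf_eq_prime_pow (p := 2) (n := 1) (x := s) (by simpa using h2) (by simpa using hpow4 u i hi)
        simpa using this
    constructor
    · intro ho
      have hi := hord u i (by rw [← hsdef, ho]; rcases hk with rfl | rfl <;> simp)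
      refine ⟨hi, ?_⟩
      by_cases hd : e ∣ 2 * (i : ℕ)
      · simp only [hd, iff_true]; rw [← ho, (hval hi).1 hd]
      · simp only [hd, iff_false]; rw [← ho, (hval hi).2 hd]; norm_num
    · rintro ⟨hi, hkd⟩
      by_cases hd : e ∣ 2 * (i : ℕ)
      · rw [(hval hi).1 hd, hkd.mpr hd]
      · rw [(hval hi).2 hd]; exact (hk.resolve_left (fun e1 => hd (hkd.mp e1))).symm
  have count : ∀ k, (k = 2 ∨ k = 4) → cnt N k =
      Nat.card U * (Finset.univ.filter fun i : Fin e => (i : ℕ) ≠ 0 ∧ ((k = 2) ↔ (e ∣ 2 * (i : ℕ)))).card := by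
    intro k hk
    rw [← Nat.card_eq_finsetCard, ← Nat.card_prod]
    unfold cnt
    let g : U × {i : Fin e // i ∈ Finset.univ.filter fun i : Fin e => (i : ℕ) ≠ 0 ∧ ((k = 2) ↔ (e ∣ 2 * (i : ℕ)))} →
        {s : Cfsg.Sz F m // s ∈ N ∧ orderOf s = k} := fun z =>
      ⟨(f (z.1, z.2.1) : Cfsg.Sz F m), (f (z.1, z.2.1)).2, (hiff _ k hk).mpr (Finset.mem_filter.mp z.2.2).2⟩
    refine (Nat.card_eq_of_bijective g ⟨?_, ?_⟩).symm
    · rintro ⟨u, i⟩ ⟨v, j⟩ e1
      have h6 : (f (u, i.1) : Cfsg.Sz F m) = f (v, j.1) := congrArg (fun z : {s : Cfsg.Sz F m // s ∈ N ∧ orderOf s = k} => (z : Cfsg.Sz F m)) e1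
      have h5 : f (u, i.1) = f (v, j.1) := Subtype.ext h6
      have := hf.1 h5
      simp only [Prod.mk.injEq] at this
      exact Prod.ext this.1 (Subtype.ext this.2)
    · rintro ⟨s, hs, ho⟩
      obtain ⟨⟨u, i⟩, hz⟩ := hf.2 ⟨s, hs⟩
      have hz' : (f (u, i) : Cfsg.Sz F m) = s := congrArg Subtype.val hz
      refine ⟨(u, ⟨i, Finset.mem_filter.mpr ⟨Finset.mem_univ _, ?_⟩⟩), Subtype.ext hz'⟩
      exact (hiff (u, i) k hk).mp (by rw [hz']; exact ho)
  rw [count 2 (Or.inl rfl), count 4 (Or.inr rfl)]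
  rcases he' with rfl | rfl
  · refine ⟨?_, fun _ => ?_, fun h4 => absurd h4 (by norm_num)⟩
    · rw [show (Finset.univ.filter fun i : Fin 2 => (i : ℕ) ≠ 0 ∧ ((2 = 2) ↔ (2 ∣ 2 * (i : ℕ)))).card = 1 by decide, mul_one]
    · rw [show (Finset.univ.filter fun i : Fin 2 => (i : ℕ) ≠ 0 ∧ ((4 = 2) ↔ (2 ∣ 2 * (i : ℕ)))).card = 0 by decide, mul_zero]
  · refine ⟨?_, fun h2 => absurd h2 (by norm_num), fun _ => ?_⟩
    · rw [show (Finset.univ.filter fun i : Fin 4 => (i : ℕ) ≠ 0 ∧ ((2 = 2) ↔ (4 ∣ 2 * (i : ℕ)))).card = 1 by decide, mul_one]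
    · rw [show (Finset.univ.filter fun i : Fin 4 => (i : ℕ) ≠ 0 ∧ ((4 = 2) ↔ (4 ∣ 2 * (i : ℕ)))).card = 2 by decide, mul_comm]

theorem solv_stab (p : suzukiOvoid F m) : Group.IsSolvable (MulAction.stabilizer (Cfsg.Sz F m) p) := by
  haveI := h.pretrans
  obtain ⟨x, rfl⟩ := MulAction.exists_smul_eq (Cfsg.Sz F m) (oI F m) p
  haveI := h.solvable_stab
  exact Group.isSolvable_of_surjective (f := (MulAction.stabilizerEquivStabilizer (g := x) rfl).toMonoidHom)
    (MulEquiv.surjective _)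

theorem solv_normalizer {U : Subgroup (Cfsg.Sz F m)} (hU : Tor U) :
    Group.IsSolvable (Subgroup.normalizer (U : Set (Cfsg.Sz F m))) := by
  set N := Subgroup.normalizer (U : Set (Cfsg.Sz F m))
  haveI : Fact (Nat.Prime 2) := ⟨Nat.prime_two⟩
  haveI : (U.subgroupOf N).Normal := Subgroup.normal_in_normalizer
  haveI := tor_cyclic h hU
  refine (Group.isSolvable_iff_subgroup_quotient (U.subgroupOf N)).mpr ⟨?_, ?_⟩
  · haveI : IsCyclic (U.subgroupOf N) :=
      isCyclic_of_surjective _ (Subgroup.subgroupOfEquivOfLe (Subgroup.le_normalizer (H := U))).symm.surjective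
    exact Group.isSolvable_of_comm fun a b => IsMulCommutative.is_comm.comm a b
  · have hp : IsPGroup 2 (N ⧸ U.subgroupOf N) := fun s => by
      obtain ⟨s, rfl⟩ := QuotientGroup.mk_surjective s
      exact ⟨2, (QuotientGroup.eq_one_iff (s ^ 2 ^ 2)).mpr (pow_four_mem h hU s.2)⟩
    haveI := hp.isNilpotent
    infer_instance

theorem sol_iff (hp : (2 * m + 1).Prime) (x y : Cfsg.Sz F m) :
    Group.IsSolvable (Subgroup.closure ({x, y} : Set (Cfsg.Sz F m))) ↔
      (∃ p : suzukiOvoid F m, x • p = p ∧ y • p = p) ∨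
      ∃ U : Subgroup (Cfsg.Sz F m), Tor U ∧ x ∈ Subgroup.normalizer (U : Set (Cfsg.Sz F m)) ∧ y ∈ Subgroup.normalizer (U : Set (Cfsg.Sz F m)) := by
  set S := Subgroup.closure ({x, y} : Set (Cfsg.Sz F m))
  have hxS : x ∈ S := Subgroup.subset_closure (Set.mem_insert _ _)
  have hyS : y ∈ S := Subgroup.subset_closure (Set.mem_insert_of_mem _ rfl)
  constructor
  · intro hs
    have hne : S ≠ ⊤ := fun e => by
      haveI : Group.IsSolvable (⊤ : Subgroup (Cfsg.Sz F m)) := e ▸ hs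
      haveI : Group.IsSolvable (Cfsg.Sz F m) :=
        Group.isSolvable_of_surjective (f := (Subgroup.topEquiv (G := Cfsg.Sz F m)).toMonoidHom) (MulEquiv.surjective _)
      haveI := h.simple
      exact (Group.IsSolvable.commutator_lt_top_of_nontrivial (G := Cfsg.Sz F m)).ne h.perfect
    obtain ⟨N, ⟨p, rfl⟩ | ⟨U, hU, hc, rfl⟩ | ⟨k, hk, hkm, hd, -⟩, hle⟩ := Classify.classify_subgroup h hne
    · exact Or.inl ⟨p, hle hxS, hle hyS⟩
    · obtain ⟨⟨g, hgU⟩, hgen⟩ := hU.exists_generator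
      have hUodd : ¬ 2 ∣ Nat.card U := by
        have h1 : 2 ∣ 2 ^ (2 * m + 1) := dvd_pow_self 2 (by omega)
        have h2 : 2 ∣ 2 ^ (m + 1) := dvd_pow_self 2 (by omega)
        have h3 : 2 ^ (m + 1) ≤ 2 ^ (2 * m + 1) := Nat.pow_le_pow_right two_pos (by omega)
        have h4 : 1 ≤ 2 ^ (m + 1) := Nat.one_le_two_pow
        simp only [Set.mem_insert_iff, Set.mem_singleton_iff] at hc
        omega
      have hgen' : U ≤ Subgroup.zpowers g := fun z hz => by
        obtain ⟨n, hn⟩ := Subgroup.mem_zpowers_iff.mp (hgen ⟨z, hz⟩)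
        exact Subgroup.mem_zpowers_iff.mpr ⟨n, congrArg Subtype.val hn⟩
      have hg1 : g ≠ 1 := by
        rintro rfl
        rw [Subgroup.zpowers_one_eq_bot] at hgen'
        have hU1 : Nat.card U = 1 := by rw [le_bot_iff.mp hgen', Subgroup.card_bot]
        have h1 : 8 ≤ 2 ^ (2 * m + 1) := (by norm_num : 8 = 2 ^ 3) ▸ Nat.pow_le_pow_right two_pos (by have := h.one_le; omega)
        have h2 : 2 * 2 ^ (m + 1) ≤ 2 * 2 ^ (2 * m + 1) := by gcongr <;> omega
        have h3 : 2 * 2 ^ (m + 1) = 2 ^ (m + 2) := by ring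
        have h4 : 2 ^ (m + 2) ≤ 2 ^ (2 * m + 1) := Nat.pow_le_pow_right two_pos (by have := h.one_le; omega)
        simp only [hU1, Set.mem_insert_iff, Set.mem_singleton_iff] at hc
        omega
      have hT : Tor (Subgroup.centralizer {g}) :=
        ⟨g, hg1, fun hd => hUodd (hd.trans (Subgroup.orderOf_dvd_natCard U hgU)), rfl⟩
      have hUle : U ≤ Subgroup.centralizer {g} :=
        hgen'.trans (Subgroup.zpowers_le.mpr (Subgroup.mem_centralizer_singleton_iff.mpr rfl))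
      have key : ∀ n ∈ Subgroup.normalizer (U : Set (Cfsg.Sz F m)),
          n ∈ Subgroup.normalizer (Subgroup.centralizer {g} : Set (Cfsg.Sz F m)) := by
        intro n hn
        have hgn : n * g * n⁻¹ ∈ U := (Subgroup.mem_normalizer_iff.mp hn g).mp hgU
        have e := tor_cent h hT (hUle hgn) (fun e => hg1 (conj_eq_one_iff.mp e))
        rw [centralizer_conj] at e
        rw [Subgroup.mem_normalizer_iff]
        intro z
        constructor
        · intro hz; rw [← e]; exact ⟨z, hz, rfl⟩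
        · intro hz
          rw [← e] at hz
          obtain ⟨w, hw, e'⟩ := hz
          obtain rfl : w = z := (MulAut.conj n).injective e'
          exact hw
      exact Or.inr ⟨_, hT, key x (hle hxS), key y (hle hyS)⟩
    · exfalso
      rcases hp.eq_one_or_self_of_dvd _ hd with e | e <;> omega
  · rintro (⟨p, hx, hy⟩ | ⟨U, hU, hx, hy⟩)
    · haveI := solv_stab h p
      exact Group.isSolvable_of_isSolvable_injective (Subgroup.inclusion_injective
        (show S ≤ MulAction.stabilizer (Cfsg.Sz F m) p from (Subgroup.closure_le _).mpr (Set.insert_subset_iff.mpr ⟨hx, Set.singleton_subset_iff.mpr hy⟩)))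
    · haveI := solv_normalizer h hU
      exact Group.isSolvable_of_isSolvable_injective (Subgroup.inclusion_injective
        (show S ≤ Subgroup.normalizer (U : Set (Cfsg.Sz F m)) from (Subgroup.closure_le _).mpr (Set.insert_subset_iff.mpr ⟨hx, Set.singleton_subset_iff.mpr hy⟩)))

end

end CfsgLib.Suzuki.Solubilizer
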