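import Cfsg.Agent.Lib.Suzuki.Solubilizer

/-! The numbers of solvable pairs through a given element of `Sz(q)` (owner helper8). -/
set_option autoImplicit false
set_option linter.all false

namespace CfsgLib.Suzuki.Solubilizer

open Cfsg (suzukiOvoid)
open CfsgLib.Fusion (cj card_cj)
open Classical
open scoped Pointwise

variable {F : Type*} [Field F] [Fintype F] {m : ℕ}

/-- the number of elements generating a solvable group with `x` -/
noncomputable def solCard {G : Type*} [Group G] (x : G) : ℕ :=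
  Nat.card {y : G // Group.IsSolvable (Subgroup.closure ({x, y} : Set G))}

theorem solCard_equiv {G H : Type*} [Group G] [Group H] (e : G ≃* H) (x : G) : solCard (e x) = solCard x := by
  refine (Nat.card_congr (e.toEquiv.subtypeEquiv fun y => ?_)).symm
  have hmap : (Subgroup.closure ({x, y} : Set G)).map e.toMonoidHom = Subgroup.closure ({e x, e y} : Set H) := by
    rw [MonoidHom.map_closure, Set.image_insert_eq, Set.image_singleton]; rfl
  show Group.IsSolvable (Subgroup.closure ({x, y} : Set G)) ↔ Group.IsSolvable (Subgroup.closure ({e x, e y} : Set H))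
  rw [← hmap]
  have f := Subgroup.equivMapOfInjective (Subgroup.closure ({x, y} : Set G)) e.toMonoidHom e.injective
  exact ⟨fun hs => Group.isSolvable_of_isSolvable_injective (f := f.symm.toMonoidHom) f.symm.injective,
    fun hs => Group.isSolvable_of_isSolvable_injective (f := f.toMonoidHom) f.injective⟩

theorem solCard_conj {G : Type*} [Group G] (k x : G) : solCard (k * x * k⁻¹) = solCard x :=
  solCard_equiv (MulAut.conj k) x

section
variable (h : Hyp F m)
include h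

theorem cj_cj (y z : Cfsg.Sz F m) (U : Subgroup (Cfsg.Sz F m)) : cj y (cj z U) = cj (y * z) U := by
  ext x
  constructor
  · rintro ⟨_, ⟨w, hw, rfl⟩, rfl⟩
    exact ⟨w, hw, by show y * z * w * (y * z)⁻¹ = y * (z * w * z⁻¹) * y⁻¹; group⟩
  · rintro ⟨w, hw, rfl⟩
    exact ⟨_, ⟨w, hw, rfl⟩, by show y * (z * w * z⁻¹) * y⁻¹ = y * z * w * (y * z)⁻¹; group⟩

theorem card_stab_pt (p : suzukiOvoid F m) :
    Nat.card (MulAction.stabilizer (Cfsg.Sz F m) p) = Fintype.card F ^ 2 * (Fintype.card F - 1) := by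
  haveI := h.pretrans
  obtain ⟨x, rfl⟩ := MulAction.exists_smul_eq (Cfsg.Sz F m) (oI F m) p
  rw [← Nat.card_congr (MulAction.stabilizerEquivStabilizer (g := x) rfl).toEquiv, stab_oI, h.card_stab, h.card]

theorem two_type {x : Cfsg.Sz F m} {k : ℕ} (hk : k = 2 ∨ k = 4) (hx : orderOf x = k) :
    ∃ (g : Cfsg.Sz F m) (a b : F), h.tG a b ≠ 1 ∧ x = g * h.tG a b * g⁻¹ := by
  obtain ⟨hq, -, hq2⟩ := Fixity.q_facts h
  have hx1 : x ≠ 1 := fun e => by rw [e, orderOf_one] at hx; omega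
  have h2 : 2 ∣ orderOf x := by rw [hx]; rcases hk with rfl | rfl <;> norm_num
  by_cases hf : Fpf x
  · exact absurd ((h2.trans (Subgroup.orderOf_dvd_natCard _ (Subgroup.mem_centralizer_singleton_iff.mpr rfl))).trans
      (h.cent_dvd hf)) hq2
  · unfold Fpf at hf; push Not at hf
    obtain ⟨p, hp⟩ := hf
    obtain ⟨g, -, ⟨a, b, hne, e⟩ | ⟨d, hd, e⟩⟩ := h.classify hx1 hp
    · exact ⟨g, a, b, hne, e⟩
    · exfalso
      rw [e, show orderOf (g * h.hG d * g⁻¹) = orderOf (h.hG d) from (MulAut.conj g).orderOf_eq _] at h2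
      exact hq (h2.trans (Fixity.card_T h ▸ Subgroup.orderOf_dvd_natCard _ ⟨d, rfl⟩))

theorem order_tG (a b : F) :
    (orderOf (h.tG a b) = 2 ↔ a = 0 ∧ b ≠ 0) ∧ (orderOf (h.tG a b) = 4 ↔ a ≠ 0) := by
  rcases eq_or_ne a 0 with rfl | ha
  · rcases eq_or_ne b 0 with rfl | hb
    · rw [h.tG_zero, orderOf_one]; simp
    · have : orderOf (h.tG 0 b) = 2 := orderOf_eq_prime (by rw [pow_two, h.tG_sq, sg_zero, zero_mul, h.tG_zero])
        (fun e => hb (h.tG_inj (e.trans h.tG_zero.symm)).2)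
      rw [this]; simp [hb]
  · have h2 : h.tG a b ^ 2 ≠ 1 := fun e => by
      rw [pow_two, h.tG_sq] at e
      exact mul_ne_zero (pow_ne_zero _ ha) ha (h.tG_inj (e.trans h.tG_zero.symm)).2
    have := orderOf_eq_prime_pow (p := 2) (n := 1) (x := h.tG a b) (by simpa using h2) (by simpa using tG_pow_four h a b)
    simp only [show (2 : ℕ) ^ (1 + 1) = 4 from rfl] at this
    rw [this]; simp [ha]

theorem card_order {k : ℕ} (hk : k = 2 ∨ k = 4) :
    Nat.card {x : Cfsg.Sz F m // orderOf x = k} =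
      (Fintype.card F ^ 2 + 1) * Nat.card {z : F × F // orderOf (h.tG z.1 z.2) = k} := by
  haveI := h.pretrans
  choose sec hsec using fun p : suzukiOvoid F m => MulAction.exists_smul_eq (Cfsg.Sz F m) (oI F m) p
  let f : suzukiOvoid F m × {z : F × F // orderOf (h.tG z.1 z.2) = k} → {x : Cfsg.Sz F m // orderOf x = k} := fun z =>
    ⟨sec z.1 * h.tG z.2.1.1 z.2.1.2 * (sec z.1)⁻¹, ((MulAut.conj (sec z.1)).orderOf_eq _).trans z.2.2⟩
  have hb : Function.Bijective f := by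
    constructor
    · rintro ⟨p, z⟩ ⟨p', z'⟩ e
      have e1 : sec p * h.tG z.1.1 z.1.2 * (sec p)⁻¹ = sec p' * h.tG z'.1.1 z'.1.2 * (sec p')⁻¹ := congrArg Subtype.val e
      have hne : h.tG z.1.1 z.1.2 ≠ 1 := fun e0 => by
        have := z.2; rw [e0, orderOf_one] at this; omega
      have hp : (sec p * h.tG z.1.1 z.1.2 * (sec p)⁻¹) • p' = p' := by
        rw [e1, mul_smul, mul_smul, inv_smul_eq_iff.mpr (hsec p').symm, h.tG_oI, hsec]
      rw [mul_smul, mul_smul, ← eq_inv_smul_iff] at hp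
      have := inv_smul_eq_iff.mp (h.tG_fix hne hp)
      rw [hsec] at this
      subst this
      obtain ⟨ea, eb⟩ := h.tG_inj (mul_left_cancel (mul_right_cancel e1))
      exact Prod.ext rfl (Subtype.ext (Prod.ext ea eb))
    · rintro ⟨x, hx⟩
      obtain ⟨g, a, b, hne, rfl⟩ := two_type h hk hx
      set p := g • oI F m with hp
      have hfix : ((sec p)⁻¹ * g) • oI F m = oI F m := by rw [mul_smul, ← hp, inv_smul_eq_iff, hsec]
      obtain ⟨c, c', hc⟩ := h.stab_conj_Q hfix (x := h.tG a b) ⟨a, b, rfl⟩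
      have e1 : sec p * h.tG c c' * (sec p)⁻¹ = g * h.tG a b * g⁻¹ := by rw [← hc]; group
      refine ⟨(p, ⟨(c, c'), ?_⟩), Subtype.ext e1⟩
      rw [← hx, ← e1]; exact ((MulAut.conj (sec p)).orderOf_eq _).symm
  rw [← Nat.card_eq_of_bijective f hb, Nat.card_prod, card_ovoid]

theorem card_order_two : Nat.card {x : Cfsg.Sz F m // orderOf x = 2} =
    (Fintype.card F ^ 2 + 1) * (Fintype.card F - 1) := by
  rw [card_order h (Or.inl rfl)]
  congr 1
  have hb : Function.Bijective (fun b : Fˣ => (⟨((0 : F), (b : F)), (order_tG h 0 b).1.mpr ⟨rfl, b.ne_zero⟩⟩ :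
      {z : F × F // orderOf (h.tG z.1 z.2) = 2})) := by
    constructor
    · intro b b' e; exact Units.ext (congrArg (fun z => (z.1 : F × F).2) e)
    · rintro ⟨⟨a, b⟩, hz⟩
      obtain ⟨rfl, hb⟩ := (order_tG h a b).1.mp hz
      exact ⟨Units.mk0 b hb, rfl⟩
  rw [← Nat.card_eq_of_bijective _ hb, Nat.card_eq_fintype_card, Fintype.card_units]

theorem card_order_four : Nat.card {x : Cfsg.Sz F m // orderOf x = 4} =
    (Fintype.card F ^ 2 + 1) * ((Fintype.card F - 1) * Fintype.card F) := by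
  rw [card_order h (Or.inr rfl)]
  congr 1
  have hb : Function.Bijective (fun z : Fˣ × F => (⟨((z.1 : F), z.2), (order_tG h z.1 z.2).2.mpr z.1.ne_zero⟩ :
      {z : F × F // orderOf (h.tG z.1 z.2) = 4})) := by
    constructor
    · rintro ⟨a, b⟩ ⟨a', b'⟩ e
      have e' : ((a : F), b) = ((a' : F), b') := congrArg Subtype.val e
      simp only [Prod.mk.injEq] at e'
      exact Prod.ext (Units.ext e'.1) e'.2
    · rintro ⟨⟨a, b⟩, hz⟩
      exact ⟨(Units.mk0 a ((order_tG h a b).2.mp hz), b), rfl⟩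
  rw [← Nat.card_eq_of_bijective _ hb, Nat.card_prod, Nat.card_eq_fintype_card, Fintype.card_units,
    Nat.card_eq_fintype_card]

theorem conj_rep_two {x : Cfsg.Sz F m} (hx : orderOf x = 2) : ∃ g, x = g * h.tG 0 1 * g⁻¹ := by
  obtain ⟨g, b, hb, rfl⟩ := Fixity.invol_form h hx
  obtain ⟨d, rfl⟩ := h.chi_surj hb
  refine ⟨g * h.hG d, ?_⟩
  have := h.hG_tG' d 0 1
  rw [mul_zero, mul_one] at this
  rw [← this]; group

theorem conj_rep_four {x : Cfsg.Sz F m} (hx : orderOf x = 4) :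
    ∃ g, x = g * h.tG 1 0 * g⁻¹ ∨ x = g * (h.tG 1 0)⁻¹ * g⁻¹ := by
  obtain ⟨g, a, b, hne, rfl⟩ := two_type h (Or.inr rfl) hx
  rw [show orderOf (g * h.tG a b * g⁻¹) = orderOf (h.tG a b) from (MulAut.conj g).orderOf_eq _] at hx
  have ha := (order_tG h a b).2.mp hx
  set d := Units.mk0 a ha
  set b' := b / Hyp.chi (m := m) d with hb'
  have e1 : h.tG a b = h.hG d * h.tG 1 b' * (h.hG d)⁻¹ := by
    rw [h.hG_tG', mul_one, hb', mul_div_cancel₀ _ (Hyp.chi_ne d)]; rfl
  -- the translations by `c + sg c` have index two and miss `1`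
  let φ : F →+ F := AddMonoidHom.mk' (fun c => c + sg m c) (fun x y => by rw [h.sg_add]; ring)
  have h1 : (1 : F) ∉ φ.range := by
    rintro ⟨c, hc⟩
    have hc' : c + sg m c = 1 := hc
    have e := congrArg (sg m) hc'
    rw [h.sg_add, h.sg_sg, sg_one] at e
    have h0 : c * (c + 1) = 0 := by linear_combination e + hc' - h.two * (sg m c - 1)
    rcases mul_eq_zero.mp h0 with e' | e'
    · rw [e', sg_zero, add_zero] at hc'; exact zero_ne_one hc'
    · have : c = 1 := by linear_combination e' - h.two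
      rw [this, sg_one] at hc'; exact zero_ne_one ((h.add_self 1).symm.trans hc')
  have hker : Nat.card φ.ker = 2 := by
    have : (φ.ker : Set F) = {0, 1} := by
      ext c
      simp only [SetLike.mem_coe, AddMonoidHom.mem_ker, Set.mem_insert_iff, Set.mem_singleton_iff]
      constructor
      · intro hc
        have hc' : c + sg m c = 0 := hc
        exact h.sg_fixed (by linear_combination hc' - c * h.two)
      · rintro (rfl | rfl)
        · show (0 : F) + sg m 0 = 0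
          rw [sg_zero, add_zero]
        · show (1 : F) + sg m 1 = 0
          rw [sg_one, h.add_self]
    rw [← SetLike.coe_sort_coe, this, Nat.card_coe_set_eq, Set.ncard_pair zero_ne_one]
  have hidx : φ.range.index = 2 := by
    have e1 := φ.ker.card_mul_index
    rw [AddSubgroup.index_ker, hker, mul_comm] at e1
    have e2 := φ.range.card_mul_index
    rw [← e1] at e2
    exact Nat.eq_of_mul_eq_mul_left Nat.card_pos e2
  have hc : ∀ b₀ : F, b₀ ∈ φ.range → ∃ k, h.tG 1 b₀ = k * h.tG 1 0 * k⁻¹ := by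
    rintro _ ⟨c, rfl⟩
    refine ⟨h.tG c 0, ?_⟩
    show h.tG 1 (c + sg m c) = _
    rw [h.tG_inv, h.tG_mul, h.tG_mul, h.sg_add, sg_one]
    congr 1 <;> first | linear_combination -(c * sg m c) * h.two | linear_combination -c * h.two | linear_combination (c * sg m c) * h.two | linear_combination c * h.two
  by_cases hb : b' ∈ φ.range
  · obtain ⟨k, hk⟩ := hc b' hb
    exact ⟨g * h.hG d * k, Or.inl (by rw [e1, hk]; group)⟩
  · have hb1 : b' + 1 ∈ φ.range := by
      rw [AddSubgroup.add_mem_iff_of_index_two hidx]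
      exact ⟨fun e => absurd e hb, fun e => absurd e h1⟩
    obtain ⟨k, hk⟩ := hc _ hb1
    refine ⟨g * h.hG d * k, Or.inr ?_⟩
    have e2 : h.tG 1 b' = (h.tG 1 (b' + 1))⁻¹ := by
      rw [h.tG_inv, sg_one, one_mul, add_assoc, h.add_self, add_zero]
    rw [e1, e2, hk]; group

/-- tori conjugate to `R` normalised by `x` -/
noncomputable def tset (R : Subgroup (Cfsg.Sz F m)) (x : Cfsg.Sz F m) : Set (Subgroup (Cfsg.Sz F m)) :=
  {U | (∃ z, U = cj z R) ∧ x ∈ Subgroup.normalizer (U : Set (Cfsg.Sz F m))}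

theorem tset_conj (R : Subgroup (Cfsg.Sz F m)) (x y : Cfsg.Sz F m) :
    (tset R (y * x * y⁻¹)).ncard = (tset R x).ncard := by
  have hn : ∀ U : Subgroup (Cfsg.Sz F m), Subgroup.normalizer (cj y U : Set (Cfsg.Sz F m)) =
      cj y (Subgroup.normalizer (U : Set (Cfsg.Sz F m))) :=
    fun U => (Subgroup.map_equiv_normalizer_eq U (MulAut.conj y)).symm
  have e : tset R (y * x * y⁻¹) = cj y '' tset R x := by
    ext U
    constructor
    · rintro ⟨⟨z, rfl⟩, hx⟩
      refine ⟨cj (y⁻¹ * z) R, ⟨⟨_, rfl⟩, ?_⟩, by rw [cj_cj h, mul_inv_cancel_left]⟩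
      rw [show cj z R = cj y (cj (y⁻¹ * z) R) by rw [cj_cj h, mul_inv_cancel_left], hn] at hx
      obtain ⟨w, hw, e⟩ := hx
      obtain rfl : w = x := (MulAut.conj y).injective e
      exact hw
    · rintro ⟨_, ⟨⟨z, rfl⟩, hx⟩, rfl⟩
      refine ⟨⟨y * z, cj_cj h y z R⟩, ?_⟩
      rw [hn]; exact ⟨x, hx, rfl⟩
  rw [e]
  exact Set.ncard_image_of_injective _ (Subgroup.map_injective (f := (MulAut.conj y).toMonoidHom) (MulAut.conj y).injective)

theorem tset_inv (R : Subgroup (Cfsg.Sz F m)) (x : Cfsg.Sz F m) : tset R x⁻¹ = tset R x := by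
  ext U; simp [tset]

theorem double_count (R : Subgroup (Cfsg.Sz F m)) (k : ℕ) (x₀ : Cfsg.Sz F m)
    (hall : ∀ x, orderOf x = k → (tset R x).ncard = (tset R x₀).ncard) (c : ℕ)
    (hc : ∀ z, cnt (Subgroup.normalizer (cj z R : Set (Cfsg.Sz F m))) k = c) :
    (tset R x₀).ncard * Nat.card {x : Cfsg.Sz F m // orderOf x = k} =
      (Subgroup.normalizer (R : Set (Cfsg.Sz F m))).index * c := by
  haveI : Fintype (Cfsg.Sz F m) := Fintype.ofFinite _
  let O := Finset.univ.filter fun x : Cfsg.Sz F m => orderOf x = k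
  let C := Finset.univ.image fun z : Cfsg.Sz F m => cj z R
  have hT : ∀ x, (tset R x).ncard = (C.filter fun U : Subgroup (Cfsg.Sz F m) => x ∈ Subgroup.normalizer (U : Set (Cfsg.Sz F m))).card := by
    intro x
    rw [← Set.ncard_coe_finset]
    congr 1
    ext U
    simp [tset, C, eq_comm]
  have hswap := Finset.sum_card_bipartiteAbove_eq_sum_card_bipartiteBelow
    (s := O) (t := C) (fun (x : Cfsg.Sz F m) (U : Subgroup (Cfsg.Sz F m)) => x ∈ Subgroup.normalizer (U : Set (Cfsg.Sz F m)))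
  have h1 : ∀ x ∈ O, (Finset.bipartiteAbove (fun (x : Cfsg.Sz F m) (U : Subgroup (Cfsg.Sz F m)) =>
      x ∈ Subgroup.normalizer (U : Set (Cfsg.Sz F m))) C x).card = (tset R x₀).ncard := fun x hx => by
    rw [← hall x (Finset.mem_filter.mp hx).2, hT]; rfl
  have h2 : ∀ U ∈ C, (Finset.bipartiteBelow (fun (x : Cfsg.Sz F m) (U : Subgroup (Cfsg.Sz F m)) =>
      x ∈ Subgroup.normalizer (U : Set (Cfsg.Sz F m))) O U).card = c := fun U hU => by
    obtain ⟨z, -, rfl⟩ := Finset.mem_image.mp hU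
    rw [← hc z]
    unfold cnt
    rw [Nat.card_eq_fintype_card, Fintype.card_subtype]
    congr 1
    ext x
    simp only [Finset.bipartiteBelow, O, Finset.mem_filter, Finset.mem_univ, true_and]
    exact and_comm
  rw [Finset.sum_congr rfl h1, Finset.sum_congr rfl h2, Finset.sum_const, Finset.sum_const, smul_eq_mul, smul_eq_mul] at hswap
  rw [Nat.card_eq_fintype_card, Fintype.card_subtype, ← CfsgLib.Dickson.ncard_range_cj R, mul_comm, hswap]
  congr 1
  rw [← Set.ncard_coe_finset, Finset.coe_image, Finset.coe_univ, Set.image_univ]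

theorem inter_stab {U : Subgroup (Cfsg.Sz F m)} (hU : Tor U) {x : Cfsg.Sz F m}
    (hxo : ∀ p : suzukiOvoid F m, x • p = p → p = oI F m) (hx : x • oI F m = oI F m)
    (hx2 : IsPGroup 2 (Subgroup.zpowers x)) (hxN : x ∈ Subgroup.normalizer (U : Set (Cfsg.Sz F m)))
    {e : ℕ} (hN : Nat.card (Subgroup.normalizer (U : Set (Cfsg.Sz F m))) = e * Nat.card U) :
    Nat.card ((Subgroup.normalizer (U : Set (Cfsg.Sz F m))) ⊓ MulAction.stabilizer (Cfsg.Sz F m) (oI F m) :
      Subgroup (Cfsg.Sz F m)) = e := by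
  set N := Subgroup.normalizer (U : Set (Cfsg.Sz F m)) with hNdef
  set K := N ⊓ MulAction.stabilizer (Cfsg.Sz F m) (oI F m) with hK
  haveI : Fact (Nat.Prime 2) := ⟨Nat.prime_two⟩
  have hKU : ∀ u ∈ K, u ∈ U → u = 1 := by
    intro u hu huU
    by_contra hu1
    have hfix : u • oI F m = oI F m := hu.2
    rcases tor_cases h hU with ⟨g, hf, e0⟩ | ⟨k, e0⟩
    · exact (h.cent_eq hf (e0 ▸ huU) hu1).1 _ hfix
    · obtain ⟨_, ⟨d, rfl⟩, rfl⟩ := (e0 ▸ huU : u ∈ cj k h.hG.range)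
      have hd : d ≠ 1 := fun e1 => hu1 (by rw [e1, map_one]; simp)
      -- `x` normalises the torus, so permutes its two fixed points
      have hv : x * (k * h.hG d * k⁻¹) * x⁻¹ ∈ cj k h.hG.range := e0 ▸ (Subgroup.mem_normalizer_iff.mp hxN _).mp huU
      have key : ∀ p : suzukiOvoid F m, p = k • oI F m ∨ p = k • o0 F m → (k * h.hG d * k⁻¹) • (x⁻¹ • p) = x⁻¹ • p := by
        intro p hp
        obtain ⟨_, ⟨d', rfl⟩, hd'⟩ := hv
        have hd2 : k * h.hG d' * k⁻¹ = x * (k * h.hG d * k⁻¹) * x⁻¹ := hd'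
        have hp' : (x * (k * h.hG d * k⁻¹) * x⁻¹) • p = p := by
          rw [← hd2]; rcases hp with rfl | rfl <;> simp [mul_smul, h.hG_oI, h.hG_o0]
        rw [mul_smul, mul_smul] at hp'
        exact eq_inv_smul_iff.mpr hp'
      have two : ∀ p : suzukiOvoid F m, (k * h.hG d * k⁻¹) • p = p → p = k • oI F m ∨ p = k • o0 F m := by
        intro p hp
        rw [mul_smul, mul_smul, ← eq_inv_smul_iff] at hp
        rcases h.hG_fix hd hp with e1 | e1
        · exact Or.inl (inv_smul_eq_iff.mp e1)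
        · exact Or.inr (inv_smul_eq_iff.mp e1)
      obtain ⟨r, hr, hne⟩ : ∃ r, (r = k • oI F m ∨ r = k • o0 F m) ∧ r ≠ oI F m := by
        by_cases e1 : k • oI F m = oI F m
        · exact ⟨_, Or.inr rfl, fun e2 => h.oI_ne_o0 (MulAction.injective k (e1.trans e2.symm))⟩
        · exact ⟨_, Or.inl rfl, e1⟩
      have hI := two _ hfix
      have hxr := two _ (key r hr)
      have hcase : x⁻¹ • r = oI F m ∨ x⁻¹ • r = r := by
        rcases hI with a | a <;> rcases hxr with b | b <;> rcases hr with c | c <;>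
          first
          | exact Or.inl (b.trans a.symm)
          | exact Or.inr (b.trans c.symm)
          | exact absurd (c.trans a.symm) hne
      rcases hcase with e1 | e1
      · exact hne ((inv_smul_eq_iff.mp e1).trans hx)
      · exact hne (hxo r (inv_smul_eq_iff.mp e1).symm)
  have hle : Nat.card K ≤ e := by
    have hinj : Function.Injective (fun z : U × K => (⟨(z.1 : Cfsg.Sz F m) * z.2,
        mul_mem (Subgroup.le_normalizer z.1.2) z.2.2.1⟩ : N)) := by
      rintro ⟨u, y⟩ ⟨u', y'⟩ e1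
      have e2 : (u : Cfsg.Sz F m) * y = u' * y' := congrArg Subtype.val e1
      have hmem : (y : Cfsg.Sz F m) * (y' : Cfsg.Sz F m)⁻¹ = ((u⁻¹ * u' : U) : Cfsg.Sz F m) := by
        rw [Subgroup.coe_mul, Subgroup.coe_inv, eq_inv_mul_iff_mul_eq, ← mul_assoc, e2, mul_inv_cancel_right]
      obtain rfl : y = y' := Subtype.ext (mul_inv_eq_one.mp
        (hKU _ (mul_mem y.2 (inv_mem y'.2)) (hmem ▸ (u⁻¹ * u' : U).2)))
      exact Prod.ext (Subtype.ext (mul_right_cancel e2)) rfl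
    have := Nat.card_le_card_of_injective _ hinj
    rw [Nat.card_prod, hN, mul_comm e] at this
    exact Nat.le_of_mul_le_mul_left this Nat.card_pos
  refine le_antisymm hle ?_
  obtain ⟨P, hP⟩ := (IsPGroup.of_injective hx2
    (Subgroup.subgroupOfEquivOfLe (Subgroup.zpowers_le.mpr hxN : Subgroup.zpowers x ≤ N)).toMonoidHom
    (MulEquiv.injective _)).exists_le_sylow
  set PG := (P : Subgroup N).map N.subtype
  obtain ⟨p, hp⟩ := Classify.two_group_fix h (P.2.map N.subtype : IsPGroup 2 PG)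
  have hxP : x ∈ PG := ⟨⟨x, hxN⟩, hP (Subgroup.mem_zpowers x : (⟨x, hxN⟩ : N) ∈ (Subgroup.zpowers x).subgroupOf N), rfl⟩
  obtain rfl := hxo p (hp x hxP)
  have hsub : PG ≤ K := fun y hy => ⟨Subgroup.map_subtype_le _ hy, hp y hy⟩
  refine le_trans (le_of_eq ?_) (Nat.card_le_card_of_injective _ (Subgroup.inclusion_injective hsub))
  rw [Subgroup.card_map_of_injective N.subtype_injective, P.card_eq_multiplicity, hN]
  obtain ⟨e', he', hN', -⟩ := tor_norm h hU
  obtain rfl : e = e' := Nat.eq_of_mul_eq_mul_right Nat.card_pos (hN.symm.trans hN')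
  rw [Nat.factorization_mul (by omega) Nat.card_pos.ne', Finsupp.add_apply,
    Nat.factorization_eq_zero_of_not_dvd (tor_odd h hU), add_zero]
  rcases he' with rfl | rfl
  · rw [Nat.Prime.factorization_self Nat.prime_two]; rfl
  · rw [show 4 = 2 ^ 2 from rfl, Nat.Prime.factorization_pow Nat.prime_two, Finsupp.single_eq_same]

theorem reps : ∃ R₂ R₃ : Subgroup (Cfsg.Sz F m), Tor R₂ ∧ Tor R₃ ∧
    Nat.card R₂ = 2 ^ (2 * m + 1) + 2 ^ (m + 1) + 1 ∧ Nat.card R₃ = 2 ^ (2 * m + 1) - 2 ^ (m + 1) + 1 ∧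
    Nat.card (Subgroup.normalizer (R₂ : Set (Cfsg.Sz F m))) = 4 * Nat.card R₂ ∧
    Nat.card (Subgroup.normalizer (R₃ : Set (Cfsg.Sz F m))) = 4 * Nat.card R₃ ∧
    ∀ U : Subgroup (Cfsg.Sz F m), Tor U → (∃ z, U = cj z h.hG.range) ∨ (∃ z, U = cj z R₂) ∨ ∃ z, U = cj z R₃ := by
  obtain ⟨g₁, g₂, hf₁, hf₂, c1, c2, n1, n2, hall⟩ := h.exists_tori
  refine ⟨_, _, tor_fpf h hf₁, tor_fpf h hf₂, c1, c2, n1, n2, fun U hU => ?_⟩
  rcases tor_cases h hU with ⟨g, hf, rfl⟩ | ⟨k, rfl⟩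
  · obtain ⟨c, e | e⟩ := hall g hf
    · exact Or.inr (Or.inl ⟨c, e⟩)
    · exact Or.inr (Or.inr ⟨c, e⟩)
  · exact Or.inl ⟨k, rfl⟩

theorem arith : 8 ≤ 2 ^ (2 * m + 1) ∧ 4 ≤ 2 ^ (m + 1) ∧ 2 * 2 ^ (m + 1) ≤ 2 ^ (2 * m + 1) ∧
    2 ∣ 2 ^ (2 * m + 1) ∧ 2 ∣ 2 ^ (m + 1) ∧ Fintype.card F = 2 ^ (2 * m + 1) := by
  have hm := h.one_le
  refine ⟨(by norm_num : 8 = 2 ^ 3) ▸ Nat.pow_le_pow_right two_pos (by omega),
    (by norm_num : 4 = 2 ^ 2) ▸ Nat.pow_le_pow_right two_pos (by omega), ?_, dvd_pow_self 2 (by omega),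
    dvd_pow_self 2 (by omega), h.card⟩
  rw [← pow_succ']; exact Nat.pow_le_pow_right two_pos (by omega)

theorem cj_class_ne {R R' : Subgroup (Cfsg.Sz F m)} (hne : Nat.card R ≠ Nat.card R') {U : Subgroup (Cfsg.Sz F m)} :
    ¬ ((∃ z, U = cj z R) ∧ ∃ z, U = cj z R') := by
  rintro ⟨⟨z, rfl⟩, z', e⟩
  exact hne (by rw [← card_cj z R, e, card_cj])

theorem count_two_type (hp : (2 * m + 1).Prime) {x : Cfsg.Sz F m} (hx : x • oI F m = oI F m)
    (hxo : ∀ p : suzukiOvoid F m, x • p = p → p = oI F m) (hx2 : IsPGroup 2 (Subgroup.zpowers x)) :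
    ∃ R₂ R₃ : Subgroup (Cfsg.Sz F m), Tor R₂ ∧ Tor R₃ ∧
      Nat.card R₂ = 2 ^ (2 * m + 1) + 2 ^ (m + 1) + 1 ∧ Nat.card R₃ = 2 ^ (2 * m + 1) - 2 ^ (m + 1) + 1 ∧
      Nat.card (Subgroup.normalizer (R₂ : Set (Cfsg.Sz F m))) = 4 * Nat.card R₂ ∧
      Nat.card (Subgroup.normalizer (R₃ : Set (Cfsg.Sz F m))) = 4 * Nat.card R₃ ∧
      solCard x = Fintype.card F ^ 2 * (Fintype.card F - 1) +
        ((tset h.hG.range x).ncard * (2 * (Fintype.card F - 1) - 2) + (tset R₂ x).ncard * (4 * Nat.card R₂ - 4) +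
          (tset R₃ x).ncard * (4 * Nat.card R₃ - 4)) := by
  obtain ⟨R₂, R₃, hR₂, hR₃, c2, c3, n2, n3, hall⟩ := reps h
  refine ⟨R₂, R₃, hR₂, hR₃, c2, c3, n2, n3, ?_⟩
  haveI : Fintype (Cfsg.Sz F m) := Fintype.ofFinite _
  haveI : Fact (Nat.Prime 2) := ⟨Nat.prime_two⟩
  set B := MulAction.stabilizer (Cfsg.Sz F m) (oI F m) with hB
  let A : Subgroup (Cfsg.Sz F m) → Finset (Cfsg.Sz F m) := fun U => Finset.univ.filter fun y =>
    y ∈ Subgroup.normalizer (U : Set (Cfsg.Sz F m)) ∧ y ∉ B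
  let T : Subgroup (Cfsg.Sz F m) → Finset (Subgroup (Cfsg.Sz F m)) := fun R => Finset.univ.filter fun U => U ∈ tset R x
  have hTor : ∀ {R U}, Tor R → U ∈ T R → Tor U ∧ x ∈ Subgroup.normalizer (U : Set (Cfsg.Sz F m)) := by
    intro R U hR hU
    obtain ⟨⟨z, rfl⟩, hxN⟩ := (Finset.mem_filter.mp hU).2
    exact ⟨tor_mk h hR z, hxN⟩
  set TT := T h.hG.range ∪ T R₂ ∪ T R₃ with hTT
  have hTT' : ∀ U ∈ TT, Tor U ∧ x ∈ Subgroup.normalizer (U : Set (Cfsg.Sz F m)) := by
    intro U hU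
    simp only [hTT, Finset.mem_union] at hU
    rcases hU with (hU | hU) | hU
    · exact hTor (tor_range h) hU
    · exact hTor hR₂ hU
    · exact hTor hR₃ hU
  have hset : (Finset.univ.filter fun y : Cfsg.Sz F m => Group.IsSolvable (Subgroup.closure ({x, y} : Set (Cfsg.Sz F m)))) =
      (Finset.univ.filter fun y => y ∈ B) ∪ TT.biUnion A := by
    ext y
    simp only [Finset.mem_filter, Finset.mem_univ, true_and, Finset.mem_union, Finset.mem_biUnion]
    rw [sol_iff h hp x y]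
    constructor
    · rintro (⟨p, hxp, hyp⟩ | ⟨U, hU, hxN, hyN⟩)
      · obtain rfl := hxo p hxp
        exact Or.inl hyp
      · by_cases hy : y ∈ B
        · exact Or.inl hy
        refine Or.inr ⟨U, ?_, Finset.mem_filter.mpr ⟨Finset.mem_univ _, hyN, hy⟩⟩
        simp only [hTT, Finset.mem_union]
        rcases hall U hU with hz | hz | hz
        · exact Or.inl (Or.inl (Finset.mem_filter.mpr ⟨Finset.mem_univ _, hz, hxN⟩))
        · exact Or.inl (Or.inr (Finset.mem_filter.mpr ⟨Finset.mem_univ _, hz, hxN⟩))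
        · exact Or.inr (Finset.mem_filter.mpr ⟨Finset.mem_univ _, hz, hxN⟩)
    · rintro (hy | ⟨U, hU, hy⟩)
      · exact Or.inl ⟨oI F m, hx, hy⟩
      · exact Or.inr ⟨U, (hTT' U hU).1, (hTT' U hU).2, (Finset.mem_filter.mp hy).2.1⟩
  have hd1 : Disjoint (Finset.univ.filter fun y => y ∈ B) (TT.biUnion A) := Finset.disjoint_left.mpr fun y hy hy' => by
    obtain ⟨U, -, hyA⟩ := Finset.mem_biUnion.mp hy'
    exact (Finset.mem_filter.mp hyA).2.2 (Finset.mem_filter.mp hy).2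
  have hd2 : (TT : Set (Subgroup (Cfsg.Sz F m))).PairwiseDisjoint A := by
    intro U hU U' hU' hne
    refine Finset.disjoint_left.mpr fun y hy hy' => hne ?_
    obtain ⟨-, hyN, hyB⟩ := Finset.mem_filter.mp hy
    obtain ⟨-, hyN', -⟩ := Finset.mem_filter.mp hy'
    obtain ⟨hT, hxN⟩ := hTT' U hU
    obtain ⟨hT', hxN'⟩ := hTT' U' hU'
    set D := Subgroup.normalizer (U : Set (Cfsg.Sz F m)) ⊓ Subgroup.normalizer (U' : Set (Cfsg.Sz F m)) with hD
    by_contra hne'
    have hDU : ∀ u ∈ D, u ∈ U → u = 1 := fun u hu huU => by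
      by_contra hu1
      have hu' : u ∈ U' := odd_mem h hT' hu.2 (not_two_dvd_of_mem h hT huU)
      exact hne' ((tor_cent h hT huU hu1).symm.trans (tor_cent h hT' hu' hu1))
    obtain ⟨p, hp'⟩ := Classify.two_group_fix h (two_group_of_inf h hT inf_le_left hDU)
    obtain rfl := hxo p (hp' x ⟨hxN, hxN'⟩)
    exact hyB (hp' y ⟨hyN, hyN'⟩)
  have hA : ∀ R U e, Tor R → Nat.card (Subgroup.normalizer (R : Set (Cfsg.Sz F m))) = e * Nat.card R → U ∈ T R →
      (A U).card = e * Nat.card R - e := by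
    intro R U e hR hN hU
    obtain ⟨⟨z, rfl⟩, hxN⟩ := (Finset.mem_filter.mp hU).2
    have hN' : Nat.card (Subgroup.normalizer (cj z R : Set (Cfsg.Sz F m))) = e * Nat.card (cj z R) := by
      rw [card_normalizer_cj h, card_cj, hN]
    have hi := inter_stab h (tor_mk h hR z) hxo hx hx2 hxN hN'
    set N := Subgroup.normalizer (cj z R : Set (Cfsg.Sz F m))
    have e1 : A (cj z R) = (Finset.univ.filter fun y => y ∈ N) \ (Finset.univ.filter fun y => y ∈ N ⊓ B) := by
      ext y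
      simp only [A, Finset.mem_filter, Finset.mem_univ, true_and, Finset.mem_sdiff, Subgroup.mem_inf]
      exact ⟨fun hh => ⟨hh.1, fun hh' => hh.2 hh'.2⟩, fun hh => ⟨hh.1, fun hh' => hh.2 ⟨hh.1, hh'⟩⟩⟩
    rw [e1, Finset.card_sdiff_of_subset (fun y hy => by simp [Subgroup.mem_inf] at hy ⊢; exact hy.1),
      ← Fintype.card_subtype, ← Fintype.card_subtype, ← Nat.card_eq_fintype_card, ← Nat.card_eq_fintype_card]
    rw [show Nat.card {y // y ∈ N} = e * Nat.card R by rw [← card_normalizer_cj h z R] at hN; exact hN,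
      show Nat.card {y // y ∈ N ⊓ B} = e from hi]
  have hTcard : ∀ R, (T R).card = (tset R x).ncard := fun R => by
    rw [← Set.ncard_coe_finset]; congr 1; ext U; simp [T]
  have hne12 : Nat.card h.hG.range ≠ Nat.card R₂ ∧ Nat.card h.hG.range ≠ Nat.card R₃ ∧ Nat.card R₂ ≠ Nat.card R₃ := by
    obtain ⟨a1, a2, a3, -, -, hq⟩ := arith h
    rw [Fixity.card_T h, c2, c3, hq]
    omega
  have hdis : ∀ {R R' : Subgroup (Cfsg.Sz F m)}, Nat.card R ≠ Nat.card R' → Disjoint (T R) (T R') := fun hne =>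
    Finset.disjoint_left.mpr fun U hU hU' =>
      cj_class_ne h hne ⟨(Finset.mem_filter.mp hU).2.1, (Finset.mem_filter.mp hU').2.1⟩
  unfold solCard
  rw [Nat.card_eq_fintype_card, Fintype.card_subtype, hset, Finset.card_union_of_disjoint hd1, Finset.card_biUnion hd2]
  congr 1
  · rw [← Fintype.card_subtype, ← Nat.card_eq_fintype_card]; exact card_stab_pt h _
  · rw [hTT, Finset.sum_union (Finset.disjoint_union_left.mpr ⟨hdis hne12.2.1, hdis hne12.2.2⟩),
      Finset.sum_union (hdis hne12.1)]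
    rw [Finset.sum_congr rfl (fun U hU => hA h.hG.range U 2 (tor_range h) (by rw [card_normalizer_range h, Fixity.card_T h]) hU),
      Finset.sum_congr rfl (fun U hU => hA R₂ U 4 hR₂ n2 hU), Finset.sum_congr rfl (fun U hU => hA R₃ U 4 hR₃ n3 hU),
      Finset.sum_const, Finset.sum_const, Finset.sum_const, smul_eq_mul, smul_eq_mul, smul_eq_mul, hTcard, hTcard, hTcard,
      Fixity.card_T h]

theorem class_eq (R : Subgroup (Cfsg.Sz F m)) (hR : Tor R) {e : ℕ}
    (hN : Nat.card (Subgroup.normalizer (R : Set (Cfsg.Sz F m))) = e * Nat.card R) :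
    (∀ x, orderOf x = 2 → e * (tset R x).ncard = Fintype.card F ^ 2) ∧
    (e = 2 → ∀ x, orderOf x = 4 → (tset R x).ncard = 0) ∧
    (e = 4 → ∀ x, orderOf x = 4 → 4 * (tset R x).ncard = 2 * Fintype.card F) := by
  obtain ⟨e', he', hN', -⟩ := tor_norm h hR
  obtain rfl : e = e' := Nat.eq_of_mul_eq_mul_right Nat.card_pos (hN.symm.trans hN')
  have hidx : (Subgroup.normalizer (R : Set (Cfsg.Sz F m))).index * (e * Nat.card R) =
      Fintype.card F ^ 2 * (Fintype.card F ^ 2 + 1) * (Fintype.card F - 1) := by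
    rw [← hN, mul_comm, Subgroup.card_mul_index, h.card_G']
  have hcnt : ∀ z, cnt (Subgroup.normalizer (cj z R : Set (Cfsg.Sz F m))) 2 = Nat.card R ∧
      (e = 2 → cnt (Subgroup.normalizer (cj z R : Set (Cfsg.Sz F m))) 4 = 0) ∧
      (e = 4 → cnt (Subgroup.normalizer (cj z R : Set (Cfsg.Sz F m))) 4 = 2 * Nat.card R) := fun z => by
    have := cnt_facts h (tor_mk h hR z) e (by rw [card_normalizer_cj h, card_cj, hN])
    rwa [card_cj] at this
  obtain ⟨hq, hq8, -⟩ := Fixity.q_facts h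
  have hall2 : ∀ x, orderOf x = 2 → (tset R x).ncard = (tset R (h.tG 0 1)).ncard := fun x hx => by
    obtain ⟨g, rfl⟩ := conj_rep_two h hx
    exact tset_conj h R _ _
  have hall4 : ∀ x, orderOf x = 4 → (tset R x).ncard = (tset R (h.tG 1 0)).ncard := fun x hx => by
    obtain ⟨g, rfl | rfl⟩ := conj_rep_four h hx
    · exact tset_conj h R _ _
    · rw [tset_conj h, tset_inv h]
  have h2 := double_count h R 2 (h.tG 0 1) hall2 _ (fun z => (hcnt z).1)
  rw [card_order_two h] at h2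
  refine ⟨fun x hx => ?_, fun he x hx => ?_, fun he x hx => ?_⟩
  · rw [hall2 x hx]
    refine Nat.eq_of_mul_eq_mul_right (show 0 < (Fintype.card F ^ 2 + 1) * (Fintype.card F - 1) from
      Nat.mul_pos (Nat.succ_pos _) (by omega)) ?_
    rw [mul_assoc, h2, ← mul_assoc (Fintype.card F ^ 2), ← hidx]; ring
  · have h4 := double_count h R 4 (h.tG 1 0) hall4 0 (fun z => (hcnt z).2.1 he)
    rw [card_order_four h, mul_zero, mul_eq_zero] at h4
    rw [hall4 x hx]
    exact h4.resolve_right (Nat.mul_pos (Nat.succ_pos _) (Nat.mul_pos (by omega) (by omega))).ne'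
  · have h4 := double_count h R 4 (h.tG 1 0) hall4 _ (fun z => (hcnt z).2.2 he)
    rw [card_order_four h] at h4
    rw [hall4 x hx]
    subst he
    refine Nat.eq_of_mul_eq_mul_right (show 0 < (Fintype.card F ^ 2 + 1) * ((Fintype.card F - 1) * Fintype.card F) from
      Nat.mul_pos (Nat.succ_pos _) (Nat.mul_pos (by omega) (by omega))) ?_
    rw [mul_assoc, h4]
    calc 4 * ((Subgroup.normalizer (R : Set (Cfsg.Sz F m))).index * (2 * Nat.card R))
        = 2 * ((Subgroup.normalizer (R : Set (Cfsg.Sz F m))).index * (4 * Nat.card R)) := by ring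
      _ = _ := by rw [hidx]; ring

theorem order_two_four (hp : (2 * m + 1).Prime) (x : Cfsg.Sz F m) :
    (orderOf x = 2 → solCard x = (2 ^ (2 * m + 1)) ^ 2 * (4 * 2 ^ (2 * m + 1) - 3)) ∧
    (orderOf x = 4 → solCard x = (2 ^ (2 * m + 1)) ^ 2 * (2 ^ (2 * m + 1) + 3)) := by
  obtain ⟨a1, a2, a3, -, -, hq⟩ := arith h
  have red : ∀ k, (k = 2 ∨ k = 4) → orderOf x = k → ∃ y : Cfsg.Sz F m, orderOf y = k ∧ solCard x = solCard y ∧
      y • oI F m = oI F m ∧ (∀ p : suzukiOvoid F m, y • p = p → p = oI F m) ∧ IsPGroup 2 (Subgroup.zpowers y) := by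
    intro k hk hx
    obtain ⟨g, a, b, hne, rfl⟩ := two_type h hk hx
    refine ⟨h.tG a b, ((MulAut.conj g).orderOf_eq _).symm.trans hx, solCard_conj g _, h.tG_oI a b,
      fun p hp' => h.tG_fix hne hp', ?_⟩
    rintro ⟨y, n, rfl⟩
    exact ⟨2, Subtype.ext (by
      show (h.tG a b ^ n) ^ 4 = 1
      rw [← zpow_natCast, ← zpow_mul, mul_comm, zpow_mul, zpow_natCast, tG_pow_four h, _root_.one_zpow])⟩
  constructor
  · intro hx
    obtain ⟨y, hy, e, h1, h2, h3⟩ := red 2 (Or.inl rfl) hx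
    obtain ⟨R₂, R₃, hR₂, hR₃, c2, c3, n2, n3, hs⟩ := count_two_type h hp h1 h2 h3
    have f1 := (class_eq h h.hG.range (tor_range h) (e := 2) (by rw [card_normalizer_range h, Fixity.card_T h])).1 y hy
    have f2 := (class_eq h R₂ hR₂ n2).1 y hy
    have f3 := (class_eq h R₃ hR₃ n3).1 y hy
    rw [e, hs, c2, c3, hq]
    rw [hq] at f1 f2 f3
    obtain ⟨t, ht⟩ : ∃ t, 2 ^ (2 * m + 1) = t + 2 ^ (m + 1) := ⟨_, (Nat.sub_add_cancel (by omega)).symm⟩
    generalize 2 ^ (m + 1) = r at *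
    generalize 2 ^ (2 * m + 1) = q at *
    generalize (tset (↑h.hG.range) y).ncard = n₁ at *
    generalize (tset R₂ y).ncard = n₂ at *
    generalize (tset R₃ y).ncard = n₃ at *
    subst ht
    rw [Nat.add_sub_cancel, show 4 * (t + r + r + 1) - 4 = 4 * (t + 2 * r) by omega,
      show 4 * (t + 1) - 4 = 4 * t by omega]
    obtain ⟨s, hs⟩ : ∃ s, t + r = s + 2 := ⟨t + r - 2, by omega⟩
    rw [show 2 * (t + r - 1) - 2 = 2 * s by omega, show t + r - 1 = s + 1 by omega,
      show 4 * (t + r) - 3 = 4 * s + 5 by omega]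
    have e1 : n₂ * (4 * (t + 2 * r)) + n₃ * (4 * t) = (t + r) ^ 2 * (2 * (t + r)) := by
      calc _ = 4 * n₂ * (t + 2 * r) + 4 * n₃ * t := by ring
        _ = _ := by rw [f2, f3]; ring
    calc (t + r) ^ 2 * (s + 1) + (n₁ * (2 * s) + n₂ * (4 * (t + 2 * r)) + n₃ * (4 * t))
        = (t + r) ^ 2 * (s + 1) + (2 * n₁ * s + (n₂ * (4 * (t + 2 * r)) + n₃ * (4 * t))) := by ring
      _ = _ := by rw [f1, e1, hs]; ring
  · intro hx
    obtain ⟨y, hy, e, h1, h2, h3⟩ := red 4 (Or.inr rfl) hx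
    obtain ⟨R₂, R₃, hR₂, hR₃, c2, c3, n2, n3, hs⟩ := count_two_type h hp h1 h2 h3
    have f1 := (class_eq h h.hG.range (tor_range h) (e := 2) (by rw [card_normalizer_range h, Fixity.card_T h])).2.1 rfl y hy
    have f2 := (class_eq h R₂ hR₂ n2).2.2 rfl y hy
    have f3 := (class_eq h R₃ hR₃ n3).2.2 rfl y hy
    rw [e, hs, c2, c3, f1, hq, zero_mul, zero_add]
    rw [hq] at f2 f3
    obtain ⟨t, ht⟩ : ∃ t, 2 ^ (2 * m + 1) = t + 2 ^ (m + 1) := ⟨_, (Nat.sub_add_cancel (by omega)).symm⟩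
    generalize 2 ^ (m + 1) = r at *
    generalize 2 ^ (2 * m + 1) = q at *
    generalize (tset R₂ y).ncard = n₂ at *
    generalize (tset R₃ y).ncard = n₃ at *
    subst ht
    rw [Nat.add_sub_cancel, show 4 * (t + r + r + 1) - 4 = 4 * (t + 2 * r) by omega,
      show 4 * (t + 1) - 4 = 4 * t by omega]
    obtain ⟨s, hs⟩ : ∃ s, t + r = s + 1 := ⟨t + r - 1, by omega⟩
    rw [show t + r - 1 = s by omega]
    calc (t + r) ^ 2 * s + (n₂ * (4 * (t + 2 * r)) + n₃ * (4 * t))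
        = (t + r) ^ 2 * s + (4 * n₂ * (t + 2 * r) + 4 * n₃ * t) := by ring
      _ = (t + r) ^ 2 * s + 4 * (t + r) ^ 2 := by rw [f2, f3]; ring
      _ = _ := by rw [hs]; ring

theorem odd_order (hp : (2 * m + 1).Prime) (x : Cfsg.Sz F m) (hx1 : x ≠ 1) :
    (orderOf x ∣ 2 ^ (2 * m + 1) - 1 → solCard x = 2 * (2 ^ (2 * m + 1)) ^ 2 * (2 ^ (2 * m + 1) - 1)) ∧
    (orderOf x ∣ 2 ^ (2 * m + 1) + 2 ^ (m + 1) + 1 → solCard x = 4 * (2 ^ (2 * m + 1) + 2 ^ (m + 1) + 1)) ∧
    (orderOf x ∣ 2 ^ (2 * m + 1) - 2 ^ (m + 1) + 1 → solCard x = 4 * (2 ^ (2 * m + 1) - 2 ^ (m + 1) + 1)) := by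
  haveI : Fintype (Cfsg.Sz F m) := Fintype.ofFinite _
  obtain ⟨a1, a2, a3, a4, a5, hq⟩ := arith h
  set q := 2 ^ (2 * m + 1) with hqdef
  set r := 2 ^ (m + 1) with hrdef
  have hprod : (q + r + 1) * (q - r + 1) = q ^ 2 + 1 := by
    have hr2 : r * r = 2 * q := by
      rw [hqdef, hrdef, ← pow_add, ← pow_succ']; congr 1; omega
    obtain ⟨t, ht⟩ : ∃ t, q = t + r := ⟨q - r, by omega⟩
    rw [ht, Nat.add_sub_cancel]
    rw [ht] at hr2
    calc (t + r + r + 1) * (t + 1) = t ^ 2 + 2 * r * t + 2 * (t + r) + 1 := by ring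
      _ = t ^ 2 + 2 * r * t + r * r + 1 := by rw [hr2]
      _ = _ := by ring
  have hfpf_case : ∀ T T', Nat.Coprime T T' → ((T = q + r + 1 ∧ T' = q - r + 1) ∨ (T = q - r + 1 ∧ T' = q + r + 1)) →
      orderOf x ∣ T → solCard x = 4 * T := by
    intro T T' hcop hTT hd
    have hodd : ¬ 2 ∣ orderOf x := fun h2 => by
      have := h2.trans hd
      rcases hTT with ⟨rfl, rfl⟩ | ⟨rfl, rfl⟩ <;> omega
    rcases odd_types h hx1 hodd with hf | ⟨k, d, hd1, rfl⟩
    swap
    · exfalso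
      rw [show orderOf (k * h.hG d * k⁻¹) = orderOf (h.hG d) from (MulAut.conj k).orderOf_eq _] at hd
      have h1 : orderOf (h.hG d) ∣ q - 1 := by
        rw [← hq, ← Fixity.card_T h]; exact Subgroup.orderOf_dvd_natCard _ ⟨d, rfl⟩
      have hdiv : T ∣ q ^ 2 + 1 := by
        rw [← hprod]; rcases hTT with ⟨rfl, rfl⟩ | ⟨rfl, rfl⟩
        · exact dvd_mul_right _ _
        · exact dvd_mul_left _ _
      have h2 : orderOf (h.hG d) ∣ 2 := by
        obtain ⟨t, ht⟩ : ∃ t, q = t + 1 := ⟨q - 1, by omega⟩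
        rw [ht, Nat.add_sub_cancel] at h1
        have := hd.trans hdiv
        rw [ht, show (t + 1) ^ 2 + 1 = t * (t + 2) + 2 by ring] at this
        exact (Nat.dvd_add_right (dvd_mul_of_dvd_left h1 _)).mp this
      rw [show orderOf (k * h.hG d * k⁻¹) = orderOf (h.hG d) from (MulAut.conj k).orderOf_eq _] at hodd
      rcases (Nat.dvd_prime Nat.prime_two).mp h2 with e | e
      · exact hd1 (h.hG_inj ((orderOf_eq_one_iff.mp e).trans (map_one _).symm))
      · exact hodd (by rw [e])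
    set U := Subgroup.centralizer {x} with hU
    have hxU : x ∈ U := Subgroup.mem_centralizer_singleton_iff.mpr rfl
    have hcardU : Nat.card U = T := by
      obtain ⟨g₁, g₂, -, -, c1, c2, -, -, hall⟩ := h.exists_tori
      have hor : Nat.card U = q + r + 1 ∨ Nat.card U = q - r + 1 := by
        obtain ⟨c, e | e⟩ := hall x hf
        · exact Or.inl (by rw [hU, e, card_cj, c1])
        · exact Or.inr (by rw [hU, e, card_cj, c2])
      have hne : Nat.card U ≠ T' := fun e => hx1 (orderOf_eq_one_iff.mp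
        (Nat.eq_one_of_dvd_coprimes hcop hd (e ▸ Subgroup.orderOf_dvd_natCard U hxU)))
      rcases hTT with ⟨rfl, rfl⟩ | ⟨rfl, rfl⟩
      · exact hor.resolve_right hne
      · exact hor.resolve_left hne
    obtain ⟨e, he, hN, he2⟩ := tor_norm h (tor_fpf h hf)
    have he4 : e = 4 := by
      refine he.resolve_left fun e2 => ?_
      have := he2 e2
      rw [← hU, hcardU, hq] at this
      rcases hTT with ⟨rfl, rfl⟩ | ⟨rfl, rfl⟩ <;> omega
    subst he4
    rw [← hU, hcardU] at hN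
    rw [← hN]
    refine Nat.card_congr (Equiv.subtypeEquivRight fun y => ?_)
    rw [sol_iff h hp x y]
    constructor
    · rintro (⟨p, hxp, -⟩ | ⟨V, hV, hxV, hyV⟩)
      · exact absurd hxp (hf p)
      · have := tor_cent h hV (odd_mem h hV hxV hodd) hx1
        rw [← hU] at this; subst this; exact hyV
    · intro hy
      exact Or.inr ⟨U, tor_fpf h hf, Subgroup.le_normalizer hxU, hy⟩
  have hcop : Nat.Coprime (q + r + 1) (q - r + 1) := by
    refine Nat.coprime_of_dvd fun p hp' hd hd' => ?_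
    have h2r : p ∣ 2 * r := by
      have := Nat.dvd_sub hd hd'
      rwa [show q + r + 1 - (q - r + 1) = 2 * r by omega] at this
    have : p ∣ 2 := by
      have h' : p ∣ 2 ^ (m + 2) := by rwa [hrdef, ← pow_succ'] at h2r
      exact hp'.dvd_of_dvd_pow h'
    have := (Nat.prime_dvd_prime_iff_eq hp' Nat.prime_two).mp this
    subst this; omega
  refine ⟨fun hd => ?_, fun hd => hfpf_case _ _ hcop (Or.inl ⟨rfl, rfl⟩) hd,
    fun hd => hfpf_case _ _ hcop.symm (Or.inr ⟨rfl, rfl⟩) hd⟩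
  have hodd : ¬ 2 ∣ orderOf x := fun h2 => by have := h2.trans hd; omega
  rcases odd_types h hx1 hodd with hf | ⟨k, d, hd1, rfl⟩
  · exfalso
    have h1 : orderOf x ∣ q ^ 2 + 1 := hq ▸
      (Subgroup.orderOf_dvd_natCard _ (Subgroup.mem_centralizer_singleton_iff.mpr rfl)).trans (h.cent_dvd hf)
    obtain ⟨t, ht⟩ : ∃ t, q = t + 1 := ⟨q - 1, by omega⟩
    rw [ht, Nat.add_sub_cancel] at hd
    rw [ht, show (t + 1) ^ 2 + 1 = t * (t + 2) + 2 by ring] at h1
    rcases (Nat.dvd_prime Nat.prime_two).mp ((Nat.dvd_add_right (dvd_mul_of_dvd_left hd _)).mp h1) with e | e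
    · exact hx1 (orderOf_eq_one_iff.mp e)
    · exact hodd (by rw [e])
  rw [solCard_conj]
  rw [show orderOf (k * h.hG d * k⁻¹) = orderOf (h.hG d) from (MulAut.conj k).orderOf_eq _] at hodd
  set B := MulAction.stabilizer (Cfsg.Sz F m) (oI F m)
  set B' := MulAction.stabilizer (Cfsg.Sz F m) (o0 F m)
  set N := Subgroup.normalizer (h.hG.range : Set (Cfsg.Sz F m))
  have hdne : h.hG d ≠ 1 := fun e => hd1 (h.hG_inj (e.trans (map_one _).symm))
  have hset : ∀ y, Group.IsSolvable (Subgroup.closure ({h.hG d, y} : Set (Cfsg.Sz F m))) ↔ (y ∈ B ∨ y ∈ B' ∨ y ∈ N) := by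
    intro y
    rw [sol_iff h hp]
    constructor
    · rintro (⟨p, hxp, hyp⟩ | ⟨V, hV, hxV, hyV⟩)
      · rcases h.hG_fix hd1 hxp with rfl | rfl
        · exact Or.inl hyp
        · exact Or.inr (Or.inl hyp)
      · have := tor_cent h hV (odd_mem h hV hxV hodd) hdne
        rw [h.cent_hG hd1] at this; subst this
        exact Or.inr (Or.inr hyV)
    · rintro (hy | hy | hy)
      · exact Or.inl ⟨_, h.hG_oI d, hy⟩
      · exact Or.inl ⟨_, h.hG_o0 d, hy⟩
      · exact Or.inr ⟨_, tor_range h, Subgroup.le_normalizer ⟨d, rfl⟩, hy⟩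
  have hBB : ∀ y, (y ∈ B ∧ y ∈ B') ↔ y ∈ h.hG.range := by
    intro y
    constructor
    · rintro ⟨h1, h2⟩
      obtain ⟨e, rfl⟩ := h.eq_hG (congrArg Subtype.val h1) (congrArg Subtype.val h2)
      exact ⟨e, rfl⟩
    · rintro ⟨e, rfl⟩; exact ⟨h.hG_oI e, h.hG_o0 e⟩
  have hNB : ∀ y, (y ∈ N ∧ (y ∈ B ∨ y ∈ B')) ↔ y ∈ h.hG.range := by
    intro y
    constructor
    · rintro ⟨hyN, hyB⟩
      obtain ⟨d', hd'⟩ := (Subgroup.mem_normalizer_iff.mp hyN (h.hG d)).mp ⟨d, rfl⟩
      have hd'1 : d' ≠ 1 := fun e => by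
        rw [e, map_one] at hd'
        exact hdne (conj_eq_one_iff.mp hd'.symm)
      have hp' : ∀ p : suzukiOvoid F m, h.hG d • p = p → (y • p = oI F m ∨ y • p = o0 F m) := fun p hp' =>
        h.hG_fix hd'1 (by rw [hd', ← mul_smul, inv_mul_cancel_right, mul_smul, hp'])
      refine (hBB y).mp ?_
      rcases hyB with hy | hy
      · refine ⟨hy, (hp' _ (h.hG_o0 d)).resolve_left fun e => ?_⟩
        exact h.oI_ne_o0 (MulAction.injective y ((show y • oI F m = oI F m from hy).trans e.symm))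
      · refine ⟨(hp' _ (h.hG_oI d)).resolve_right fun e => ?_, hy⟩
        exact h.oI_ne_o0 (MulAction.injective y (e.trans (show y • o0 F m = o0 F m from hy).symm))
    · intro hy
      exact ⟨Subgroup.le_normalizer hy, Or.inl ((hBB y).mpr hy).1⟩
  unfold solCard
  rw [Nat.card_eq_fintype_card, Fintype.card_subtype,
    show (Finset.univ.filter fun y : Cfsg.Sz F m => Group.IsSolvable (Subgroup.closure ({h.hG d, y} : Set (Cfsg.Sz F m)))) =
      ((Finset.univ.filter (· ∈ B)) ∪ (Finset.univ.filter (· ∈ B'))) ∪ Finset.univ.filter (· ∈ N) from by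
      ext y; simp only [Finset.mem_filter, Finset.mem_union, Finset.mem_univ, true_and, hset, or_assoc]]
  have u1 := Finset.card_union_add_card_inter (Finset.univ.filter (· ∈ B)) (Finset.univ.filter (· ∈ B'))
  have u2 := Finset.card_union_add_card_inter ((Finset.univ.filter (· ∈ B)) ∪ (Finset.univ.filter (· ∈ B')))
    (Finset.univ.filter (· ∈ N))
  have i1 : (Finset.univ.filter (· ∈ B)) ∩ (Finset.univ.filter (· ∈ B')) = Finset.univ.filter (· ∈ h.hG.range) := by
    ext y; simp only [Finset.mem_inter, Finset.mem_filter, Finset.mem_univ, true_and, hBB]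
  have i2 : ((Finset.univ.filter (· ∈ B)) ∪ (Finset.univ.filter (· ∈ B'))) ∩ (Finset.univ.filter (· ∈ N)) =
      Finset.univ.filter (· ∈ h.hG.range) := by
    ext y
    simp only [Finset.mem_inter, Finset.mem_union, Finset.mem_filter, Finset.mem_univ, true_and]
    rw [and_comm]; exact hNB y
  have cc : ∀ (K : Subgroup (Cfsg.Sz F m)) [DecidablePred (· ∈ K)], (Finset.univ.filter (· ∈ K)).card = Nat.card K := fun K _ => by
    rw [← Fintype.card_subtype]; exact (Nat.card_eq_fintype_card (α := K)).symm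
  rw [i1, cc, cc, cc, card_stab_pt h, card_stab_pt h, Fixity.card_T h, hq] at u1
  rw [i2, cc, cc, card_normalizer_range h, Fixity.card_T h, hq] at u2
  rw [show 2 * q ^ 2 * (q - 1) = 2 * (q ^ 2 * (q - 1)) by ring]
  omega

theorem statement_form (hp : (2 * m + 1).Prime) (x : Cfsg.Sz F m) :
    (orderOf x = 2 → solCard x = (2 ^ (2 * m + 1)) ^ 2 * (4 * 2 ^ (2 * m + 1) - 3)) ∧
    (orderOf x = 4 → solCard x = (2 ^ (2 * m + 1)) ^ 2 * (2 ^ (2 * m + 1) + 3)) ∧
    (x ≠ 1 → orderOf x ∣ 2 ^ (2 * m + 1) - 1 → solCard x = 2 * (2 ^ (2 * m + 1)) ^ 2 * (2 ^ (2 * m + 1) - 1)) ∧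
    (x ≠ 1 → orderOf x ∣ 2 ^ (2 * m + 1) + 2 ^ (m + 1) + 1 → solCard x = 4 * (2 ^ (2 * m + 1) + 2 ^ (m + 1) + 1)) ∧
    (x ≠ 1 → orderOf x ∣ 2 ^ (2 * m + 1) - 2 ^ (m + 1) + 1 → solCard x = 4 * (2 ^ (2 * m + 1) - 2 ^ (m + 1) + 1)) :=
  ⟨(order_two_four h hp x).1, (order_two_four h hp x).2, fun h1 => (odd_order h hp x h1).1,
    fun h1 => (odd_order h hp x h1).2.1, fun h1 => (odd_order h hp x h1).2.2⟩

end

end CfsgLib.Suzuki.Solubilizer
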